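import Mathlib
import Cfsg.Prelude.Def_PLocal
import Cfsg.Agent.Lib.Helper5.PSolv

set_option autoImplicit false

namespace Cfsg.Agent.Lib.Helper4.Transport

open Cfsg Cfsg.Agent.Lib.Helper5

variable {G : Type*} [Group G] {p : ℕ}

/-- dual Hall–Higman 1.2.3 for `p`-solvable groups. -/
theorem centralizer_pPrimeCore_le' [Fact p.Prime] [Finite G] (hsol : IsPSolvable p G)
    (hO : pCore p G = ⊥) :
    Subgroup.centralizer (pPrimeCore p G : Set G) ≤ pPrimeCore p G := by
  obtain ⟨n, H, h0, hn, hmono, hnorm, hfac⟩ := hsol
  set P := pPrimeCore p G with hP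
  set C := Subgroup.centralizer (P : Set G) with hC
  have hPp : (Nat.card P).Coprime p := pPrimeCore_coprime
  have key : ∀ i : Fin (n + 1), H i ⊓ C ≤ P := by
    intro i
    induction i using Fin.induction with
    | zero => rw [h0]; exact inf_le_left.trans bot_le
    | succ i ih =>
      have hAB : H i.castSucc ≤ H i.succ := hmono (Fin.castSucc_lt_succ).le
      haveI := hnorm i.castSucc
      haveI := hnorm i.succ
      set L := H i.succ ⊓ C with hL
      set M := H i.castSucc ⊓ C with hM
      have hML : M ≤ L := inf_le_inf_right _ hAB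
      have hLn : L.Normal := inferInstance
      have hMp : (Nat.card M).Coprime p :=
        Nat.Coprime.coprime_dvd_left (Subgroup.card_dvd_of_le ih) hPp
      have hr : M.relIndex L ∣ (H i.castSucc).relIndex (H i.succ) := by
        have h1 : M = H i.castSucc ⊓ L := by
          rw [hM, hL, ← inf_assoc, inf_eq_left.mpr hAB]
        rw [h1, Subgroup.inf_relIndex_right]
        exact relIndex_dvd_relIndex_of_le inf_le_left
      have hcard : Nat.card M * M.relIndex L = Nat.card L := card_mul_relIndex hML
      rcases hfac i with ⟨m, hm⟩ | hc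
      · rw [hm] at hr
        obtain ⟨j, _, hj⟩ := (Nat.dvd_prime_pow Fact.out).mp hr
        have hrc : (Nat.card M).Coprime (M.relIndex L) := by
          rw [hj]; exact Nat.Coprime.pow_right j hMp
        refine le_trans ?_ ih
        rw [← Subgroup.relIndex_eq_one]
        haveI : (M.subgroupOf L).Normal := inferInstance
        have hcardM' : Nat.card (M.subgroupOf L) = Nat.card M := by
          rw [← Subgroup.card_map_of_injective L.subtype_injective,
            Subgroup.map_subgroupOf_eq_of_le hML]
        have hcop : Nat.Coprime (Nat.card (M.subgroupOf L)) (M.subgroupOf L).index := by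
          rw [hcardM']
          exact hrc
        obtain ⟨K', hK'⟩ := Subgroup.exists_right_complement'_of_coprime hcop
        set K := K'.map L.subtype with hK
        have hKcard : Nat.card K = M.relIndex L := by
          rw [hK, Subgroup.card_map_of_injective L.subtype_injective]
          have h1 := hK'.card_mul_card
          rw [hcardM', ← hcard] at h1
          exact Nat.eq_of_mul_eq_mul_left Nat.card_pos h1
        have hKL : K ≤ L := Subgroup.map_subtype_le K'
        have hKn : K.Normal := by
          constructor
          intro x hx g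
          have hyL : g * x * g⁻¹ ∈ L := hLn.conj_mem x (hKL hx) g
          have hy' : (⟨g * x * g⁻¹, hyL⟩ : L) ∈ M.subgroupOf L ⊔ K' := by
            rw [hK'.sup_eq_top]; exact Subgroup.mem_top _
          obtain ⟨m, hm, k, hk, hmk⟩ := Subgroup.mem_sup_of_normal_left.mp hy'
          have hmk' : (m : G) * k = g * x * g⁻¹ := congrArg Subtype.val hmk
          have hmM : (m : G) ∈ M := Subgroup.mem_subgroupOf.mp hm
          have hkK : (k : G) ∈ K := ⟨k, hk, rfl⟩
          have hcomm : Commute (m : G) (k : G) := (k.2.2 m (ih hmM))
          have hxr : x ^ (M.relIndex L) = 1 := by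
            rw [← hKcard]
            exact congrArg Subtype.val (pow_card_eq_one' (x := (⟨x, hx⟩ : K)))
          have hkr : (k : G) ^ (M.relIndex L) = 1 := by
            rw [← hKcard]
            exact congrArg Subtype.val (pow_card_eq_one' (x := (⟨k, hkK⟩ : K)))
          have hmr : (m : G) ^ (M.relIndex L) = 1 := by
            have h1 : ((m : G) * k) ^ (M.relIndex L) = 1 := by
              rw [hmk', conj_pow, hxr]; group
            rwa [hcomm.mul_pow, hkr, mul_one] at h1
          have hm1 : (m : G) = 1 := by
            have hb' : (m : G) ^ (Nat.card M) = 1 :=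
              congrArg Subtype.val (pow_card_eq_one' (x := (⟨m, hmM⟩ : M)))
            have h1 : orderOf (m : G) ∣ Nat.gcd (Nat.card M) (M.relIndex L) :=
              Nat.dvd_gcd (orderOf_dvd_of_pow_eq_one hb') (orderOf_dvd_of_pow_eq_one hmr)
            rw [hrc] at h1
            exact orderOf_eq_one_iff.mp (Nat.dvd_one.mp h1)
          rw [← hmk', hm1, one_mul]
          exact hkK
        have hKbot : K ≤ ⊥ := by
          rw [← hO]
          apply le_pCore hKn
          exact IsPGroup.of_card (hKcard.trans hj)
        rw [← hKcard, le_bot_iff.mp hKbot, Subgroup.card_bot]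
      · apply le_pPrimeCore hLn
        rw [← hcard]
        exact Nat.Coprime.mul_left hMp (Nat.Coprime.coprime_dvd_left hr hc)
  have := key (Fin.last n)
  rwa [hn, top_inf_eq] at this

theorem relIndex_subgroupOf_dvd' (H K T : Subgroup G) [H.Normal] :
    (H.subgroupOf T).relIndex (K.subgroupOf T) ∣ H.relIndex K := by
  have h1 : (H.subgroupOf T).relIndex (K.subgroupOf T) = H.relIndex (K ⊓ T) := by
    unfold Subgroup.subgroupOf
    rw [Subgroup.relIndex_comap]
    congr 1
    exact Subgroup.subgroupOf_map_subtype K T
  rw [h1, ← Subgroup.relIndex_subgroupOf (inf_le_left : K ⊓ T ≤ K)]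
  exact Subgroup.relIndex_dvd_index_of_normal _ _

theorem isPSolvable_subgroup' (hp : p.Prime) (h : IsPSolvable p G) (T : Subgroup G) :
    IsPSolvable p T := by
  obtain ⟨n, H, h0, hn, hmono, hnorm, hstep⟩ := h
  refine ⟨n, fun i => (H i).subgroupOf T, ?_, ?_, ?_, ?_, ?_⟩
  · simp [h0]
  · simp [hn]
  · intro i j hij
    exact Subgroup.comap_mono (hmono hij)
  · intro i
    haveI := hnorm i
    infer_instance
  · intro i
    haveI := hnorm i.castSucc
    have hdvd := relIndex_subgroupOf_dvd' (H i.castSucc) (H i.succ) T
    rcases hstep i with ⟨m, hm⟩ | hc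
    · left
      rw [hm] at hdvd
      obtain ⟨k, _, hk⟩ := (Nat.dvd_prime_pow hp).1 hdvd
      exact ⟨k, hk⟩
    · right
      exact Nat.Coprime.coprime_dvd_left hdvd hc

end Cfsg.Agent.Lib.Helper4.Transport
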