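import Mathlib
import Cfsg.Prelude.Def_SolvableStructure

set_option autoImplicit false

namespace Cfsg.Agent.Lib.Helper4

open Subgroup

universe u v

/-- normal chain with cyclic steps from `A` up to `C`. -/
inductive CycChain {G : Type u} [Group G] : Subgroup G → Subgroup G → Prop
  | refl (A : Subgroup G) : A.Normal → CycChain A A
  | step (A B C : Subgroup G) (g : G) : A.Normal → B = A ⊔ zpowers g → CycChain B C → CycChain A C

namespace CycChain

variable {G : Type u} [Group G]

theorem normal_left {A C : Subgroup G} (h : CycChain A C) : A.Normal := by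
  cases h with
  | refl _ h => exact h
  | step _ _ _ _ h _ _ => exact h

theorem normal_right {A C : Subgroup G} (h : CycChain A C) : C.Normal := by
  induction h with
  | refl _ h => exact h
  | step _ _ _ _ _ _ _ ih => exact ih

theorem le {A C : Subgroup G} (h : CycChain A C) : A ≤ C := by
  induction h with
  | refl _ h => exact le_rfl
  | step _ _ _ _ _ hB _ ih => exact le_trans (hB ▸ le_sup_left) ih

theorem trans {A B C : Subgroup G} (h1 : CycChain A B) (h2 : CycChain B C) : CycChain A C := by
  induction h1 with
  | refl _ _ => exact h2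
  | step A B' _ g hA hB _ ih => exact step A B' C g hA hB (ih h2)

theorem map' {G' : Type v} [Group G'] (f : G →* G')
    (hf : ∀ N : Subgroup G, N.Normal → (N.map f).Normal) {A C : Subgroup G}
    (h : CycChain A C) : CycChain (A.map f) (C.map f) := by
  induction h with
  | refl A hA => exact refl _ (hf A hA)
  | step A B C g hA hB _ ih =>
    refine step _ (B.map f) _ (f g) (hf A hA) ?_ ih
    rw [hB, Subgroup.map_sup, MonoidHom.map_zpowers]

theorem map {G' : Type v} [Group G'] (f : G →* G') (hf : Function.Surjective f) {A C : Subgroup G}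
    (h : CycChain A C) : CycChain (A.map f) (C.map f) :=
  map' f (fun _ hN => hN.map f hf) h

end CycChain

theorem step_comap {G : Type u} {K : Type v} [Group G] [Group K] (f : K →* G) (A B : Subgroup G)
    [A.Normal] (g : G) (hB : B = A ⊔ zpowers g) :
    ∃ k : K, B.comap f = A.comap f ⊔ zpowers k := by
  set φ : K →* G ⧸ A := (QuotientGroup.mk' A).comp f with hφ
  have hker : φ.ker = A.comap f := by
    ext y
    simp [hφ, MonoidHom.mem_ker, QuotientGroup.eq_one_iff]
  have hle : (B.comap f).map φ ≤ zpowers (QuotientGroup.mk' A g) := by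
    rintro _ ⟨y, hy, rfl⟩
    have hy' : f y ∈ A ⊔ zpowers g := hB ▸ hy
    have : (QuotientGroup.mk' A) (f y) ∈ (A ⊔ zpowers g).map (QuotientGroup.mk' A) :=
      Subgroup.mem_map_of_mem _ hy'
    rw [Subgroup.map_sup, MonoidHom.map_zpowers] at this
    have hA : A.map (QuotientGroup.mk' A) = ⊥ := by
      rw [Subgroup.map_eq_bot_iff, QuotientGroup.ker_mk']
    rw [hA, bot_sup_eq] at this
    exact this
  have : IsCyclic ((B.comap f).map φ) := Subgroup.isCyclic_of_le hle
  obtain ⟨z, hz⟩ := (Subgroup.isCyclic_iff_exists_zpowers_eq_top _).mp this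
  have hzmem : z ∈ (B.comap f).map φ := hz ▸ Subgroup.mem_zpowers z
  obtain ⟨k, hk, rfl⟩ := hzmem
  refine ⟨k, le_antisymm ?_ ?_⟩
  · intro y hy
    have : φ y ∈ zpowers (φ k) := hz ▸ Subgroup.mem_map_of_mem _ hy
    obtain ⟨m, hm⟩ := Subgroup.mem_zpowers_iff.mp this
    have h1 : y * (k ^ m)⁻¹ ∈ φ.ker := by
      rw [MonoidHom.mem_ker, map_mul, map_inv, map_zpow, hm, mul_inv_cancel]
    rw [hker] at h1
    have h2 : y = (y * (k ^ m)⁻¹) * k ^ m := by group
    rw [h2]
    exact mul_mem (Subgroup.mem_sup_left h1)
      (Subgroup.mem_sup_right (Subgroup.zpow_mem_zpowers k m))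
  · refine sup_le (Subgroup.comap_mono (hB ▸ le_sup_left)) ?_
    rw [Subgroup.zpowers_le]
    exact hk

theorem CycChain.comap {G : Type u} {K : Type v} [Group G] [Group K] (f : K →* G)
    {A C : Subgroup G} (h : CycChain A C) : CycChain (A.comap f) (C.comap f) := by
  induction h with
  | refl A hA => exact CycChain.refl _ (hA.comap f)
  | step A B C g hA hB _ ih =>
    have := hA
    obtain ⟨k, hk⟩ := step_comap f A B g hB
    exact CycChain.step _ (B.comap f) _ k (hA.comap f) hk ih

theorem isSupersolvable_iff {G : Type u} [Group G] :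
    Cfsg.IsSupersolvable G ↔ CycChain (⊥ : Subgroup G) ⊤ := by
  constructor
  · rintro ⟨n, H, h0, hn, hnorm, hstep⟩
    have key : ∀ i : Fin (n + 1), CycChain (H i) ⊤ := by
      intro i
      induction i using Fin.reverseInduction with
      | last => rw [hn]; exact CycChain.refl _ inferInstance
      | cast i ih =>
        obtain ⟨g, hg⟩ := hstep i
        exact CycChain.step _ _ _ g (hnorm _) hg ih
    rw [← h0]; exact key 0
  · intro h
    have key : ∀ A C : Subgroup G, CycChain A C → ∃ (n : ℕ) (H : Fin (n + 1) → Subgroup G),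
        H 0 = A ∧ H (Fin.last n) = C ∧ (∀ i, (H i).Normal) ∧
          ∀ i : Fin n, ∃ g : G, H i.succ = H i.castSucc ⊔ Subgroup.zpowers g := by
      intro A C h
      induction h with
      | refl A hA => exact ⟨0, fun _ => A, rfl, rfl, fun _ => hA, fun i => i.elim0⟩
      | step A B C g hA hB _ ih =>
        obtain ⟨n, H, h0, hn, hnorm, hstep⟩ := ih
        refine ⟨n + 1, Fin.cons A H, rfl, ?_, ?_, ?_⟩
        · rw [← Fin.succ_last, Fin.cons_succ]; exact hn
        · intro i
          induction i using Fin.cases with
          | zero => exact hA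
          | succ j => rw [Fin.cons_succ]; exact hnorm j
        · intro i
          induction i using Fin.cases with
          | zero =>
            refine ⟨g, ?_⟩
            rw [Fin.cons_succ, Fin.castSucc_zero, Fin.cons_zero, h0, hB]
          | succ j =>
            obtain ⟨g', hg'⟩ := hstep j
            refine ⟨g', ?_⟩
            rw [Fin.cons_succ, ← Fin.succ_castSucc, Fin.cons_succ]
            exact hg'
    exact key _ _ h

end Cfsg.Agent.Lib.Helper4
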