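import Mathlib
import Cfsg.Agent.Lib.Helper4.Supersolvable

set_option autoImplicit false

namespace Cfsg.Agent.Lib.Helper4

open Subgroup

universe u v

theorem ss_quotient {G : Type u} [Group G] (hG : Cfsg.IsSupersolvable G) (N : Subgroup G) [N.Normal] :
    Cfsg.IsSupersolvable (G ⧸ N) := by
  rw [isSupersolvable_iff] at hG ⊢
  have := CycChain.map (QuotientGroup.mk' N) (QuotientGroup.mk'_surjective N) hG
  rwa [Subgroup.map_bot, Subgroup.map_top_of_surjective _ (QuotientGroup.mk'_surjective N)] at this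

theorem ss_subgroup {G : Type u} [Group G] (hG : Cfsg.IsSupersolvable G) (H : Subgroup G) :
    Cfsg.IsSupersolvable H := by
  rw [isSupersolvable_iff] at hG ⊢
  have := CycChain.comap H.subtype hG
  simpa using this

theorem ss_of_quotient_cyclic {G : Type u} [Group G] (N : Subgroup G) [N.Normal] [IsCyclic N]
    (h : Cfsg.IsSupersolvable (G ⧸ N)) : Cfsg.IsSupersolvable G := by
  rw [isSupersolvable_iff] at h ⊢
  have h2 := CycChain.comap (QuotientGroup.mk' N) h
  rw [Subgroup.comap_top, MonoidHom.comap_bot, QuotientGroup.ker_mk'] at h2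
  obtain ⟨g, hg⟩ := (Subgroup.isCyclic_iff_exists_zpowers_eq_top N).mp inferInstance
  exact CycChain.step ⊥ N ⊤ g inferInstance (by rw [bot_sup_eq, hg]) h2

theorem ss_of_mulEquiv {G : Type u} {H : Type v} [Group G] [Group H] (e : G ≃* H)
    (hG : Cfsg.IsSupersolvable G) : Cfsg.IsSupersolvable H := by
  rw [isSupersolvable_iff] at hG ⊢
  have := CycChain.map e.toMonoidHom e.surjective hG
  rwa [Subgroup.map_bot, Subgroup.map_top_of_surjective _ e.surjective] at this

theorem step_inf {G : Type u} [Group G] (A B N : Subgroup G) [A.Normal] (g : G)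
    (hB : B = A ⊔ zpowers g) : ∃ k ∈ N, B ⊓ N = (A ⊓ N) ⊔ zpowers k := by
  obtain ⟨k, hk⟩ := step_comap N.subtype A B g hB
  refine ⟨k, k.2, ?_⟩
  have := congrArg (Subgroup.map N.subtype) hk
  rw [Subgroup.map_sup, MonoidHom.map_zpowers] at this
  have e1 : (B.comap N.subtype).map N.subtype = B ⊓ N := Subgroup.subgroupOf_map_subtype B N
  have e2 : (A.comap N.subtype).map N.subtype = A ⊓ N := Subgroup.subgroupOf_map_subtype A N
  rw [e1, e2] at this
  exact this

theorem exists_prime_normal_of_zpowers {G : Type u} [Group G] [Finite G] (g : G) (hg : g ≠ 1)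
    (hn : (zpowers g).Normal) : ∃ Z ≤ zpowers g, Z.Normal ∧ (Nat.card Z).Prime := by
  have hn1 : orderOf g ≠ 1 := by simpa [orderOf_eq_one_iff] using hg
  obtain ⟨p, hp, hpn⟩ := Nat.exists_prime_and_dvd hn1
  have hpos : 0 < orderOf g := orderOf_pos g
  refine ⟨zpowers (g ^ (orderOf g / p)), ?_, ?_, ?_⟩
  · rw [Subgroup.zpowers_le]
    exact pow_mem (Subgroup.mem_zpowers g) _
  · constructor
    intro x hx y
    obtain ⟨m, rfl⟩ := Subgroup.mem_zpowers_iff.mp hx
    have h1 : y * g * y⁻¹ ∈ zpowers g := hn.conj_mem g (Subgroup.mem_zpowers g) y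
    obtain ⟨k, hk⟩ := Subgroup.mem_zpowers_iff.mp h1
    have h2 : y * (g ^ (orderOf g / p)) ^ m * y⁻¹ = ((g ^ (orderOf g / p)) ^ k) ^ m := by
      rw [← conj_zpow, ← conj_pow, ← hk]
      congr 1
      rw [← zpow_natCast, ← zpow_natCast, ← zpow_mul, ← zpow_mul, mul_comm]
    rw [h2]
    exact Subgroup.zpow_mem _ (Subgroup.zpow_mem_zpowers _ k) m
  · rw [Nat.card_zpowers]
    have hd : orderOf g / p ∣ orderOf g := Nat.div_dvd_of_dvd hpn
    have hne : orderOf g / p ≠ 0 := by
      have := Nat.div_pos (Nat.le_of_dvd hpos hpn) hp.pos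
      omega
    rw [orderOf_pow_of_dvd hne hd, Nat.div_div_self hpn hpos.ne']
    exact hp

theorem exists_normal_prime_aux {G : Type u} [Group G] [Finite G] (N : Subgroup G) [N.Normal]
    {A C : Subgroup G} (h : CycChain A C) (hA : A ⊓ N = ⊥) (hC : C ⊓ N ≠ ⊥) :
    ∃ Z ≤ N, Z.Normal ∧ (Nat.card Z).Prime := by
  induction h with
  | refl A _ => exact absurd hA hC
  | step A B C g hAn hB hBC ih =>
    by_cases hBN : B ⊓ N = ⊥
    · exact ih hBN hC
    · have := hAn
      obtain ⟨k, hkN, hk⟩ := step_inf A B N g hB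
      rw [hA, bot_sup_eq] at hk
      have hBn := hBC.normal_left
      have hnorm : (zpowers k).Normal := hk ▸ inferInstance
      have hk1 : k ≠ 1 := by
        rintro rfl
        apply hBN
        rw [hk]; simp
      obtain ⟨Z, hZ, hZn, hZp⟩ := exists_prime_normal_of_zpowers k hk1 hnorm
      exact ⟨Z, hZ.trans (by rw [Subgroup.zpowers_le]; exact hkN), hZn, hZp⟩

theorem exists_normal_prime {G : Type u} [Group G] [Finite G] (hG : Cfsg.IsSupersolvable G)
    (N : Subgroup G) [N.Normal] (hN : N ≠ ⊥) : ∃ Z ≤ N, Z.Normal ∧ (Nat.card Z).Prime := by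
  rw [isSupersolvable_iff] at hG
  exact exists_normal_prime_aux N hG (by simp) (by simpa using hN)

theorem comm_mem_of_step {G : Type u} [Group G] (A B : Subgroup G) [A.Normal] (hBn : B.Normal)
    (g : G) (hB : B = A ⊔ zpowers g) (x : G) (hx : x ∈ B) (c : G) (hc : c ∈ commutator G) :
    x * c * x⁻¹ * c⁻¹ ∈ A := by
  set π := QuotientGroup.mk' A with hπ
  have hsurj : Function.Surjective π := QuotientGroup.mk'_surjective A
  have hmapB : B.map π = zpowers (π g) := by
    rw [hB, Subgroup.map_sup, MonoidHom.map_zpowers]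
    have hA : A.map π = ⊥ := by
      rw [Subgroup.map_eq_bot_iff, QuotientGroup.ker_mk']
    rw [hA, bot_sup_eq]
  have hnorm : (zpowers (π g)).Normal := hmapB ▸ hBn.map π hsurj
  have hconj : ∀ u : G ⧸ A, ∃ k : ℤ, u * π g * u⁻¹ = π g ^ k := by
    intro u
    have := hnorm.conj_mem (π g) (Subgroup.mem_zpowers _) u
    obtain ⟨k, hk⟩ := Subgroup.mem_zpowers_iff.mp this
    exact ⟨k, hk.symm⟩
  have hcomm : ∀ u v : G ⧸ A, (u * v) * π g * (u * v)⁻¹ = (v * u) * π g * (v * u)⁻¹ := by
    intro u v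
    obtain ⟨a, ha⟩ := hconj u
    obtain ⟨b, hb⟩ := hconj v
    have h1 : (u * v) * π g * (u * v)⁻¹ = u * (v * π g * v⁻¹) * u⁻¹ := by group
    have h2 : (v * u) * π g * (v * u)⁻¹ = v * (u * π g * u⁻¹) * v⁻¹ := by group
    rw [h1, h2, ha, hb, ← conj_zpow, ← conj_zpow, ha, hb, ← zpow_mul, ← zpow_mul, mul_comm]
  have hcent : commutator (G ⧸ A) ≤ Subgroup.centralizer {π g} := by
    rw [_root_.commutator_def, Subgroup.commutator_le]
    intro u _ v _
    rw [Subgroup.mem_centralizer_singleton_iff]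
    have h := hcomm u⁻¹ v⁻¹
    rw [commutatorElement_def]
    have h4 : u * v * u⁻¹ * v⁻¹ * π g
        = (v⁻¹ * u⁻¹)⁻¹ * ((u⁻¹ * v⁻¹) * π g * (u⁻¹ * v⁻¹)⁻¹) * (u⁻¹ * v⁻¹) := by group
    rw [h4, h]; group
  have hc' : π c ∈ commutator (G ⧸ A) := by
    have h1 : π c ∈ (commutator G).map π := Subgroup.mem_map_of_mem _ hc
    rw [_root_.commutator_def, Subgroup.map_commutator] at h1
    rw [_root_.commutator_def]
    exact Subgroup.commutator_mono le_top le_top h1
  have h5 : π c * π g = π g * π c := Subgroup.mem_centralizer_singleton_iff.mp (hcent hc')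
  have hx' : π x ∈ zpowers (π g) := hmapB ▸ Subgroup.mem_map_of_mem _ hx
  obtain ⟨k, hk⟩ := Subgroup.mem_zpowers_iff.mp hx'
  have h6 : Commute (π x) (π c) := by
    rw [← hk]
    exact (Commute.zpow_left (show Commute (π g) (π c) from h5.symm) k)
  have h7 : π (x * c * x⁻¹ * c⁻¹) = 1 := by
    rw [map_mul, map_mul, map_mul, map_inv, map_inv, h6.eq]
    group
  exact (QuotientGroup.eq_one_iff _).mp h7

end Cfsg.Agent.Lib.Helper4
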