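import Mathlib
import Cfsg.Agent.Lib.Helper4.Supersolvable2

set_option autoImplicit false

namespace Cfsg.Agent.Lib.Helper4

open Subgroup

universe u v

theorem ss_of_subsingleton {G : Type u} [Group G] [Subsingleton G] : Cfsg.IsSupersolvable G := by
  rw [isSupersolvable_iff]
  have : (⊥ : Subgroup G) = ⊤ := Subsingleton.elim _ _
  rw [this]
  exact CycChain.refl _ inferInstance

theorem ss_of_cyclic {G : Type u} [Group G] [IsCyclic G] : Cfsg.IsSupersolvable G := by
  rw [isSupersolvable_iff]
  obtain ⟨g, hg⟩ := isCyclic_iff_exists_zpowers_eq_top.mp (inferInstance : IsCyclic G)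
  exact CycChain.step ⊥ ⊤ ⊤ g inferInstance (by rw [bot_sup_eq, hg]) (CycChain.refl _ inferInstance)

theorem card_quotient_lt {G : Type u} [Group G] [Finite G] (Z : Subgroup G) (hZ : 2 ≤ Nat.card Z) :
    Nat.card (G ⧸ Z) < Nat.card G := by
  have h1 := Subgroup.card_eq_card_quotient_mul_card_subgroup Z
  have h3 : 0 < Nat.card (G ⧸ Z) := Nat.card_pos
  rw [h1]
  nlinarith

theorem ss_of_pgroup : ∀ (n : ℕ) (G : Type u) [Group G] [Finite G] (p : ℕ) [Fact p.Prime],
    Nat.card G = n → IsPGroup p G → Cfsg.IsSupersolvable G := by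
  intro n
  induction n using Nat.strong_induction_on with
  | _ n ih =>
    intro G _ _ p hp hn hG
    rcases subsingleton_or_nontrivial G with hs | hs
    · exact ss_of_subsingleton
    have := hG.center_nontrivial
    have hc : IsPGroup p (Subgroup.center G) := hG.to_subgroup _
    have h2 : p ∣ Nat.card (Subgroup.center G) := by
      rcases hc.card_eq_or_dvd with h1 | h1
      · exact absurd (Finite.one_lt_card (α := Subgroup.center G)) (by omega)
      · exact h1
    obtain ⟨z, hz⟩ := exists_prime_orderOf_dvd_card' p h2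
    have hzn : (zpowers (z : G)).Normal := by
      constructor
      intro x hx g
      have hxc : x ∈ Subgroup.center G := by
        have : zpowers (z : G) ≤ Subgroup.center G := by
          rw [Subgroup.zpowers_le]; exact z.2
        exact this hx
      have : g * x * g⁻¹ = x := by
        rw [Subgroup.mem_center_iff.mp hxc g]; group
      rwa [this]
    have hcard : Nat.card (zpowers (z : G)) = p := by
      rw [Nat.card_zpowers, Subgroup.orderOf_coe, hz]
    have hlt : Nat.card (G ⧸ zpowers (z : G)) < n := by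
      rw [← hn]
      exact card_quotient_lt _ (by rw [hcard]; exact hp.out.two_le)
    exact ss_of_quotient_cyclic (zpowers (z : G)) (ih _ hlt _ p rfl (hG.to_quotient _))

theorem normal_of_decomp {G : Type u} [Group G] (N P L : Subgroup G) [P.Normal] (hPL : P ⊔ L = ⊤)
    (h1 : ∀ a ∈ P, ∀ n ∈ N, a * n = n * a) (h2 : ∀ b ∈ L, ∀ n ∈ N, b * n * b⁻¹ ∈ N) : N.Normal := by
  constructor
  intro n hn g
  have hg : g ∈ ((P ⊔ L : Subgroup G) : Set G) := by rw [hPL]; trivial
  rw [Subgroup.normal_mul] at hg
  obtain ⟨a, ha, b, hb, rfl⟩ := hg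
  have h3 := h2 b hb n hn
  have h4 : a * b * n * (a * b)⁻¹ = a * (b * n * b⁻¹) * a⁻¹ := by group
  rw [h4, h1 a ha _ h3]
  simpa using h3

end Cfsg.Agent.Lib.Helper4
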