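import Mathlib

set_option autoImplicit false

namespace Cfsg.Agent.Lib.Helper4.MC

open Finset
open scoped commutatorElement

/-- geometric sum `1 + ρ + ⋯ + ρ^(N-1)` -/
def gs (ρ N : ℕ) : ℕ := ∑ i ∈ range N, ρ ^ i

theorem gs_zero (ρ : ℕ) : gs ρ 0 = 0 := by simp [gs]

theorem gs_succ (ρ N : ℕ) : gs ρ (N + 1) = ρ * gs ρ N + 1 := by
  unfold gs; exact geom_sum_succ

theorem gs_one_left (N : ℕ) : gs 1 N = N := by simp [gs]

theorem gs_one_right (ρ : ℕ) : gs ρ 1 = 1 := by simp [gs]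

theorem gs_mul_add_one (σ N : ℕ) : gs (σ + 1) N * σ + 1 = (σ + 1) ^ N := by
  induction N with
  | zero => simp [gs_zero]
  | succ N ih =>
    rw [gs_succ, pow_succ, ← ih]; ring

theorem emult_gs {p : ℕ} (hp : p.Prime) (hp2 : p ≠ 2) {ρ : ℕ} (hρ : ρ % p = 1) (N : ℕ) :
    emultiplicity p (gs ρ N) = emultiplicity p N := by
  rcases Nat.lt_or_ge 1 ρ with h1 | h1
  · obtain ⟨σ, rfl⟩ : ∃ σ, ρ = σ + 1 := ⟨ρ - 1, by omega⟩
    have hσ0 : σ ≠ 0 := by omega
    have hodd : Odd p := hp.odd_of_ne_two hp2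
    have hd : p ∣ σ + 1 - 1 := by
      have h2 : (σ + 1) % p = 1 % p := by rw [hρ, Nat.mod_eq_of_lt hp.one_lt]
      exact (Nat.modEq_iff_dvd' (by omega)).mp h2.symm
    have hx : ¬ p ∣ σ + 1 := by
      intro h; have := Nat.mod_eq_zero_of_dvd h; omega
    have key := Nat.emultiplicity_pow_sub_pow hp hodd (x := σ + 1) (y := 1) hd hx N
    have hmul : (σ + 1) ^ N - 1 ^ N = σ * gs (σ + 1) N := by
      rw [← gs_mul_add_one, one_pow, Nat.add_sub_cancel, mul_comm]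
    rw [hmul, Nat.add_sub_cancel, emultiplicity_mul hp.prime] at key
    have hfin : emultiplicity p σ ≠ ⊤ := by
      rw [← finiteMultiplicity_iff_emultiplicity_ne_top]
      exact Nat.finiteMultiplicity_iff.mpr ⟨hp.ne_one, Nat.pos_of_ne_zero hσ0⟩
    exact (WithTop.add_left_inj hfin).mp key
  · have h0 : ρ ≠ 0 := by rintro rfl; simp at hρ
    have : ρ = 1 := by omega
    subst this; rw [gs_one_left]

theorem pow_dvd_gs_mul_iff {p : ℕ} (hp : p.Prime) (hp2 : p ≠ 2) {ρ : ℕ} (hρ : ρ % p = 1)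
    (N M f : ℕ) : p ^ f ∣ gs ρ N * M ↔ p ^ f ∣ N * M := by
  rw [pow_dvd_iff_le_emultiplicity, pow_dvd_iff_le_emultiplicity, emultiplicity_mul hp.prime,
    emultiplicity_mul hp.prime, emult_gs hp hp2 hρ]

theorem pow_dvd_gs_iff {p : ℕ} (hp : p.Prime) (hp2 : p ≠ 2) {ρ : ℕ} (hρ : ρ % p = 1)
    (N f : ℕ) : p ^ f ∣ gs ρ N ↔ p ^ f ∣ N := by
  have := pow_dvd_gs_mul_iff hp hp2 hρ N 1 f
  simpa using this

variable {G : Type*} [Group G]

/-- in a `p`-group, `y ^ (gs ρ N * M) = 1 ↔ y ^ (N * M) = 1`. -/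
theorem pow_gs_mul_eq_one_iff {p : ℕ} (hp : p.Prime) (hp2 : p ≠ 2) {ρ : ℕ} (hρ : ρ % p = 1)
    {y : G} (hy : ∃ f : ℕ, orderOf y = p ^ f) (N M : ℕ) :
    y ^ (gs ρ N * M) = 1 ↔ y ^ (N * M) = 1 := by
  obtain ⟨f, hf⟩ := hy
  rw [← orderOf_dvd_iff_pow_eq_one, ← orderOf_dvd_iff_pow_eq_one, hf]
  exact pow_dvd_gs_mul_iff hp hp2 hρ N M f

theorem pow_gs_eq_one_iff {p : ℕ} (hp : p.Prime) (hp2 : p ≠ 2) {ρ : ℕ} (hρ : ρ % p = 1)
    {y : G} (hy : ∃ f : ℕ, orderOf y = p ^ f) (N : ℕ) :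
    y ^ (gs ρ N) = 1 ↔ y ^ N = 1 := by
  have := pow_gs_mul_eq_one_iff hp hp2 hρ hy N 1
  simpa using this

/-- `g` acts on `A` as the `ρ`-th power map -/
def Acts (A : Subgroup G) (g : G) (ρ : ℕ) : Prop := ∀ x ∈ A, g * x * g⁻¹ = x ^ ρ

theorem comm_pow_left {A : Subgroup G} (hc : ∀ x c : G, ⁅x, c⁆ ∈ A) {x : G} {ρ : ℕ}
    (hx : Acts A x ρ) (c : G) (N : ℕ) : ⁅x ^ N, c⁆ = ⁅x, c⁆ ^ (gs ρ N) := by
  induction N with
  | zero => simp [gs_zero]
  | succ N ih =>
    have e : ⁅x ^ (N + 1), c⁆ = x * ⁅x ^ N, c⁆ * x⁻¹ * ⁅x, c⁆ := by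
      rw [pow_succ']; simp only [commutatorElement_def]; group
    rw [e, hx _ (hc _ _), ih, gs_succ, ← pow_mul, pow_succ, mul_comm ρ]

theorem comm_pow_right {A : Subgroup G} (hc : ∀ x c : G, ⁅x, c⁆ ∈ A) {c : G} {ρ : ℕ}
    (hx : Acts A c ρ) (x : G) (N : ℕ) : ⁅x, c ^ N⁆ = ⁅x, c⁆ ^ (gs ρ N) := by
  rw [← commutatorElement_inv, comm_pow_left hc hx, ← inv_pow, commutatorElement_inv]

theorem mul_pow_acts {A : Subgroup G} {g : G} {ρ : ℕ} (hg : Acts A g ρ) {x : G} (hx : x ∈ A)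
    (N : ℕ) : (x * g) ^ N = x ^ (gs ρ N) * g ^ N := by
  induction N with
  | zero => simp [gs_zero]
  | succ N ih =>
    have e : x * g * (x ^ gs ρ N * g ^ N) = x * (g * x ^ gs ρ N * g⁻¹) * (g * g ^ N) := by group
    rw [pow_succ', ih, e, hg _ (A.pow_mem hx _), ← pow_succ', gs_succ, ← pow_mul, ← pow_succ',
      mul_comm ρ]


theorem Acts.pow {A : Subgroup G} {g : G} {ρ : ℕ} (hg : Acts A g ρ) (n : ℕ) :
    Acts A (g ^ n) (ρ ^ n) := by
  induction n with
  | zero => intro x _; simp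
  | succ n ih =>
    intro x hx
    have e : g ^ (n + 1) * x * (g ^ (n + 1))⁻¹ = g * (g ^ n * x * (g ^ n)⁻¹) * g⁻¹ := by
      rw [pow_succ']; group
    rw [e, ih x hx, hg _ (A.pow_mem hx _), ← pow_mul, pow_succ]

/-- the data of a metacyclic `p`-group -/
structure IsSetup (p : ℕ) (A : Subgroup G) (a b : G) : Prop where
  normal : A.Normal
  hA : A = Subgroup.zpowers a
  hb : ∀ g : G, ∃ i j : ℕ, g = a ^ i * b ^ j
  acts : ∀ g : G, ∃ ρ : ℕ, ρ % p = 1 ∧ Acts A g ρ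
  comm : ∀ x c : G, ⁅x, c⁆ ∈ A
  pgroup : IsPGroup p G

theorem ordp {p : ℕ} [Fact p.Prime] (hG : IsPGroup p G) (y : G) : ∃ f : ℕ, orderOf y = p ^ f := by
  obtain ⟨k, hk⟩ := hG y
  obtain ⟨f, _, hf⟩ := (Nat.dvd_prime_pow Fact.out).mp (orderOf_dvd_of_pow_eq_one hk)
  exact ⟨f, hf⟩

theorem exists_setup_of_gen [Finite G] {p : ℕ} [Fact p.Prime] (hG : IsPGroup p G) (A : Subgroup G)
    [hN : A.Normal] (a b : G) (hA : A = Subgroup.zpowers a)
    (hbq : ∀ q : G ⧸ A, q ∈ Subgroup.zpowers (QuotientGroup.mk b : G ⧸ A)) :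
    IsSetup p A a b := by
  have hp : p.Prime := Fact.out
  refine ⟨hN, hA, ?_, ?_, ?_, hG⟩
  · intro g
    have h1 := hbq (QuotientGroup.mk g)
    rw [← mem_powers_iff_mem_zpowers, Submonoid.mem_powers_iff] at h1
    obtain ⟨j, hj⟩ := h1
    have h2 : g * (b ^ j)⁻¹ ∈ A := by
      rw [← QuotientGroup.eq_one_iff, QuotientGroup.mk_mul, QuotientGroup.mk_inv,
        QuotientGroup.mk_pow, hj, mul_inv_cancel]
    rw [hA, ← mem_powers_iff_mem_zpowers, Submonoid.mem_powers_iff] at h2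
    obtain ⟨i, hi⟩ := h2
    exact ⟨i, j, by rw [hi]; group⟩
  · intro g
    have h1 : g * a * g⁻¹ ∈ A := hN.conj_mem a (by rw [hA]; exact Subgroup.mem_zpowers a) g
    rw [hA, ← mem_powers_iff_mem_zpowers, Submonoid.mem_powers_iff] at h1
    obtain ⟨ρ, hρ⟩ := h1
    have hact : Acts A g ρ := by
      intro x hx
      rw [hA, Subgroup.mem_zpowers_iff] at hx
      obtain ⟨k, rfl⟩ := hx
      have e : g * a ^ k * g⁻¹ = (g * a * g⁻¹) ^ k := by
        rw [conj_zpow]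
      rw [e, ← hρ, ← zpow_natCast, ← zpow_natCast, ← zpow_mul, ← zpow_mul, mul_comm]
    by_cases ha1 : a = 1
    · refine ⟨1, Nat.mod_eq_of_lt hp.one_lt, ?_⟩
      intro x hx
      rw [hA, ha1, Subgroup.zpowers_one_eq_bot, Subgroup.mem_bot] at hx
      subst hx; simp
    · refine ⟨ρ, ?_, hact⟩
      obtain ⟨e, he⟩ := hG g
      have h2 := (hact.pow (p ^ e)) a (by rw [hA]; exact Subgroup.mem_zpowers a)
      rw [he] at h2
      simp only [one_mul, inv_one, mul_one] at h2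
      have h3 : a ^ 1 = a ^ (ρ ^ p ^ e) := by rw [pow_one]; exact h2
      rw [pow_eq_pow_iff_modEq] at h3
      obtain ⟨f, hf⟩ := ordp hG a
      have hf0 : f ≠ 0 := by
        rintro rfl
        rw [pow_zero, orderOf_eq_one_iff] at hf
        exact ha1 hf
      have h4 : 1 ≡ ρ ^ p ^ e [MOD p] := h3.of_dvd (by rw [hf]; exact dvd_pow_self p hf0)
      have h5 : ((ρ : ZMod p)) = 1 := by
        have := (ZMod.natCast_eq_natCast_iff _ _ _).mpr h4
        push_cast at this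
        rw [ZMod.pow_card_pow] at this
        exact this.symm
      have h6 : (ρ : ZMod p) = ((1 : ℕ) : ZMod p) := by rw [h5]; simp
      have h7 := (ZMod.natCast_eq_natCast_iff' _ _ _).mp h6
      rw [h7, Nat.mod_eq_of_lt hp.one_lt]
  · intro x c
    rw [← QuotientGroup.eq_one_iff]
    obtain ⟨i, hi⟩ := Subgroup.mem_zpowers_iff.mp (hbq (QuotientGroup.mk x))
    obtain ⟨j, hj⟩ := Subgroup.mem_zpowers_iff.mp (hbq (QuotientGroup.mk c))
    rw [commutatorElement_def]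
    simp only [QuotientGroup.mk_mul, QuotientGroup.mk_inv]
    rw [← hi, ← hj]
    have : Commute ((QuotientGroup.mk b : G ⧸ A) ^ i) ((QuotientGroup.mk b : G ⧸ A) ^ j) :=
      (Commute.refl _).zpow_zpow i j
    rw [this.eq]; group

/-- metacyclic -/
def MCyc (G : Type*) [Group G] : Prop :=
  ∃ (N : Subgroup G) (_ : N.Normal), IsCyclic N ∧ IsCyclic (G ⧸ N)

theorem exists_setup [Finite G] {p : ℕ} [Fact p.Prime] (hG : IsPGroup p G) (A : Subgroup G)
    [hN : A.Normal] (hA : IsCyclic A) (hQ : IsCyclic (G ⧸ A)) : ∃ a b : G, IsSetup p A a b := by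
  obtain ⟨⟨a, haA⟩, ha⟩ := hA.exists_generator
  obtain ⟨bq, hbq⟩ := hQ.exists_generator
  obtain ⟨b, rfl⟩ := QuotientGroup.mk_surjective bq
  refine ⟨a, b, exists_setup_of_gen hG A a b ?_ hbq⟩
  ext x
  constructor
  · intro hx
    obtain ⟨k, hk⟩ := Subgroup.mem_zpowers_iff.mp (ha ⟨x, hx⟩)
    rw [Subgroup.mem_zpowers_iff]
    exact ⟨k, by simpa using congrArg Subtype.val hk⟩
  · intro hx
    obtain ⟨k, rfl⟩ := Subgroup.mem_zpowers_iff.mp hx
    exact A.zpow_mem haA k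


theorem index_centralizer_eq_ncard (g : G) :
    (Subgroup.centralizer ({g} : Set G)).index = {h : G | IsConj g h}.ncard := by
  have h0 : (Subgroup.centralizer ({g} : Set G)).index
      = (MulAction.stabilizer (ConjAct G) g).index := by
    rw [ConjAct.stabilizer_eq_centralizer]; rfl
  rw [h0, MulAction.index_stabilizer]
  congr 1
  ext h
  rw [ConjAct.mem_orbit_conjAct, Set.mem_ofPred_eq, isConj_comm]

theorem mem_centralizer_singleton_iff_comm {g c : G} :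
    c ∈ Subgroup.centralizer ({g} : Set G) ↔ ⁅g, c⁆ = 1 := by
  rw [Subgroup.mem_centralizer_singleton_iff, commutatorElement_eq_one_iff_mul_comm]
  exact eq_comm

section
variable {p : ℕ} [Fact p.Prime] {A : Subgroup G} {a b : G}

theorem IsSetup.comm_pow_left_eq_one_iff (h : IsSetup p A a b) (hp2 : p ≠ 2) (x c : G) (N M : ℕ) :
    ⁅x ^ N, c⁆ ^ M = 1 ↔ ⁅x, c⁆ ^ (N * M) = 1 := by
  obtain ⟨ρ, hρ, hact⟩ := h.acts x
  rw [comm_pow_left h.comm hact, ← pow_mul]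
  exact pow_gs_mul_eq_one_iff Fact.out hp2 hρ (ordp h.pgroup _) N M

theorem IsSetup.comm_pow_right_eq_one_iff (h : IsSetup p A a b) (hp2 : p ≠ 2) (x c : G) (N M : ℕ) :
    ⁅x, c ^ N⁆ ^ M = 1 ↔ ⁅x, c⁆ ^ (N * M) = 1 := by
  obtain ⟨ρ, hρ, hact⟩ := h.acts c
  rw [comm_pow_right h.comm hact, ← pow_mul]
  exact pow_gs_mul_eq_one_iff Fact.out hp2 hρ (ordp h.pgroup _) N M

theorem IsSetup.isCyclic (h : IsSetup p A a b) : IsCyclic A := by
  rw [h.hA]; infer_instance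

theorem IsSetup.ncard_pow_eq_one_le [Finite G] (h : IsSetup p A a b) {n : ℕ} (hn : 0 < n) :
    {y : G | y ∈ A ∧ y ^ n = 1}.ncard ≤ n := by
  classical
  haveI := h.isCyclic
  haveI : Fintype A := Fintype.ofFinite A
  have h1 := IsCyclic.card_pow_eq_one_le (α := A) hn
  have h2 : {y : G | y ∈ A ∧ y ^ n = 1} =
      ((Finset.univ.filter (fun y : A => y ^ n = 1)).image (fun y : A => (y : G)) : Finset G) := by
    ext y
    simp only [Set.mem_setOf_eq, Finset.coe_image, Finset.coe_filter, Finset.mem_univ, true_and,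
      Set.mem_image]
    constructor
    · rintro ⟨hy, hy1⟩
      exact ⟨⟨y, hy⟩, by ext; simpa using hy1, rfl⟩
    · rintro ⟨z, hz, rfl⟩
      exact ⟨z.2, by simpa using congrArg Subtype.val hz⟩
  rw [h2, Set.ncard_coe_finset]
  exact le_trans Finset.card_image_le h1

theorem IsSetup.index_centralizer_le_iff [Finite G] (h : IsSetup p A a b) (hp2 : p ≠ 2) (g : G)
    (e : ℕ) : (Subgroup.centralizer ({g} : Set G)).index ≤ p ^ e ↔ ∀ c : G, ⁅g, c⁆ ^ p ^ e = 1 := by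
  have hp : p.Prime := Fact.out
  constructor
  · intro hle c
    obtain ⟨H, hH⟩ : ∃ H, H = Subgroup.centralizer ({g} : Set G) := ⟨_, rfl⟩
    rw [← hH] at hle
    have h1 : H.relIndex (Subgroup.zpowers c) ≤ H.index := by
      have := Subgroup.relIndex_le_of_le_right (H := H) (le_top : Subgroup.zpowers c ≤ ⊤)
        (by rw [Subgroup.relIndex_top_right]; exact Subgroup.index_ne_zero_of_finite)
      rwa [Subgroup.relIndex_top_right] at this
    have h2 : (⟨c, Subgroup.mem_zpowers c⟩ : Subgroup.zpowers c) ^ (H.relIndex (Subgroup.zpowers c))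
        ∈ H.subgroupOf (Subgroup.zpowers c) := by
      haveI : (H.subgroupOf (Subgroup.zpowers c)).Normal := inferInstance
      exact Subgroup.pow_index_mem _ _
    rw [Subgroup.mem_subgroupOf] at h2
    simp only [Subgroup.coe_pow] at h2
    obtain ⟨j, hj⟩ : ∃ j, H.relIndex (Subgroup.zpowers c) = p ^ j := by
      have h3 : IsPGroup p (Subgroup.zpowers c) := h.pgroup.to_subgroup _
      exact h3.index _
    rw [hj] at h1 h2
    have hje : j ≤ e := (Nat.pow_le_pow_iff_right hp.one_lt).mp (le_trans h1 hle)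
    have h4 : c ^ p ^ e ∈ H := by
      obtain ⟨d, rfl⟩ := Nat.exists_eq_add_of_le hje
      rw [pow_add, pow_mul]
      exact H.pow_mem h2 _
    rw [hH, mem_centralizer_singleton_iff_comm] at h4
    have h5 := (h.comm_pow_right_eq_one_iff hp2 g c (p ^ e) 1).mp (by rw [pow_one]; exact h4)
    rwa [mul_one] at h5
  · intro hall
    rw [index_centralizer_eq_ncard]
    have h1 : {x : G | IsConj g x} ⊆ (fun y => y⁻¹ * g) '' {y : G | y ∈ A ∧ y ^ p ^ e = 1} := by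
      intro x hx
      obtain ⟨c, hc⟩ := isConj_iff.mp hx
      refine ⟨⁅g, c⁆, ⟨h.comm _ _, hall c⟩, ?_⟩
      simp only [commutatorElement_def]
      rw [← hc]; group
    calc {x : G | IsConj g x}.ncard ≤ ((fun y => y⁻¹ * g) '' {y : G | y ∈ A ∧ y ^ p ^ e = 1}).ncard :=
          Set.ncard_le_ncard h1 (Set.toFinite _)
      _ ≤ {y : G | y ∈ A ∧ y ^ p ^ e = 1}.ncard := Set.ncard_image_le (Set.toFinite _)
      _ ≤ p ^ e := h.ncard_pow_eq_one_le (pow_pos hp.pos e)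

theorem IsSetup.index_centralizer_eq [Finite G] (h : IsSetup p A a b) (hp2 : p ≠ 2) (g : G)
    (n : ℕ) (h1 : ∀ c : G, ⁅g, c⁆ ^ p ^ n = 1) (c₀ : G) (h2 : orderOf ⁅g, c₀⁆ = p ^ n) :
    (Subgroup.centralizer ({g} : Set G)).index = p ^ n := by
  have hp : p.Prime := Fact.out
  obtain ⟨k, hk⟩ := h.pgroup.index (Subgroup.centralizer ({g} : Set G))
  have h3 := (h.index_centralizer_le_iff hp2 g n).mpr h1
  have h4 := (h.index_centralizer_le_iff hp2 g k).mp hk.le c₀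
  rw [← orderOf_dvd_iff_pow_eq_one, h2] at h4
  rw [hk] at h3 ⊢
  have h5 : k ≤ n := (Nat.pow_le_pow_iff_right hp.one_lt).mp h3
  have h6 : n ≤ k := (Nat.pow_dvd_pow_iff_le_right hp.one_lt).mp h4
  rw [le_antisymm h5 h6]


theorem comm_mul_left (x x' c : G) : ⁅x * x', c⁆ = x * ⁅x', c⁆ * x⁻¹ * ⁅x, c⁆ := by
  simp only [commutatorElement_def]; group

theorem comm_mul_right (x c d : G) : ⁅x, c * d⁆ = ⁅x, c⁆ * (c * ⁅x, d⁆ * c⁻¹) := by
  simp only [commutatorElement_def]; group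

theorem IsSetup.a_mem (h : IsSetup p A a b) : a ∈ A := by
  rw [h.hA]; exact Subgroup.mem_zpowers a

theorem IsSetup.commute_of_mem (h : IsSetup p A a b) {x y : G} (hx : x ∈ A) (hy : y ∈ A) :
    Commute x y := by
  rw [h.hA] at hx hy
  obtain ⟨i, rfl⟩ := Subgroup.mem_zpowers_iff.mp hx
  obtain ⟨j, rfl⟩ := Subgroup.mem_zpowers_iff.mp hy
  exact (Commute.refl a).zpow_zpow i j

theorem IsSetup.commutator_eq (h : IsSetup p A a b) :
    commutator G = Subgroup.zpowers ⁅a, b⁆ := by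
  apply le_antisymm
  · rw [commutator_def, Subgroup.commutator_le]
    intro g₁ _ g₂ _
    obtain ⟨Y, hY⟩ : ∃ Y, Y = Subgroup.zpowers ⁅a, b⁆ := ⟨_, rfl⟩
    rw [← hY]
    have hyY : ⁅a, b⁆ ∈ Y := by rw [hY]; exact Subgroup.mem_zpowers _
    have hYA : Y ≤ A := by
      rw [hY, Subgroup.zpowers_le]; exact h.comm _ _
    have hconj : ∀ g z : G, z ∈ Y → g * z * g⁻¹ ∈ Y := by
      intro g z hz
      obtain ⟨ρ, _, hact⟩ := h.acts g
      rw [hact z (hYA hz)]
      exact Y.pow_mem hz _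
    have hmulL : ∀ x x' c : G, ⁅x, c⁆ ∈ Y → ⁅x', c⁆ ∈ Y → ⁅x * x', c⁆ ∈ Y := by
      intro x x' c h1 h2
      rw [comm_mul_left]
      exact Y.mul_mem (hconj _ _ h2) h1
    have hmulR : ∀ x c d : G, ⁅x, c⁆ ∈ Y → ⁅x, d⁆ ∈ Y → ⁅x, c * d⁆ ∈ Y := by
      intro x c d h1 h2
      rw [comm_mul_right]
      exact Y.mul_mem h1 (hconj _ _ h2)
    have hab : ∀ i l : ℕ, ⁅a ^ i, b ^ l⁆ ∈ Y := by
      intro i l
      obtain ⟨ρ, _, hact⟩ := h.acts a
      obtain ⟨ρ', _, hact'⟩ := h.acts b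
      rw [comm_pow_left h.comm hact, comm_pow_right h.comm hact']
      exact Y.pow_mem (Y.pow_mem hyY _) _
    have hba : ∀ i l : ℕ, ⁅b ^ l, a ^ i⁆ ∈ Y := by
      intro i l
      rw [← commutatorElement_inv]
      exact Y.inv_mem (hab i l)
    have haa : ∀ i k : ℕ, ⁅a ^ i, a ^ k⁆ ∈ Y := by
      intro i k
      rw [commutatorElement_eq_one_iff_commute.mpr ((Commute.refl a).pow_pow i k)]
      exact Y.one_mem
    have hbb : ∀ i k : ℕ, ⁅b ^ i, b ^ k⁆ ∈ Y := by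
      intro i k
      rw [commutatorElement_eq_one_iff_commute.mpr ((Commute.refl b).pow_pow i k)]
      exact Y.one_mem
    obtain ⟨i, j, rfl⟩ := h.hb g₁
    obtain ⟨k, l, rfl⟩ := h.hb g₂
    exact hmulL _ _ _ (hmulR _ _ _ (haa _ _) (hab _ _)) (hmulR _ _ _ (hba _ _) (hbb _ _))
  · rw [Subgroup.zpowers_le, commutator_def]
    exact Subgroup.commutator_mem_commutator (Subgroup.mem_top _) (Subgroup.mem_top _)

theorem IsSetup.orderOf_comm_ab (h : IsSetup p A a b) :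
    orderOf ⁅a, b⁆ = Nat.card (commutator G) := by
  rw [h.commutator_eq, Nat.card_zpowers]

theorem comm_pow_card (x c : G) : ⁅x, c⁆ ^ Nat.card (commutator G) = 1 := by
  have hm : ⁅x, c⁆ ∈ commutator G := by
    rw [commutator_def]
    exact Subgroup.commutator_mem_commutator (Subgroup.mem_top _) (Subgroup.mem_top _)
  have h1 := pow_card_eq_one' (G := commutator G) (x := ⟨_, hm⟩)
  have h2 := congrArg Subtype.val h1
  rwa [Subgroup.coe_pow, Subgroup.coe_one] at h2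

theorem IsSetup.index_centralizer_a [Finite G] (h : IsSetup p A a b) (hp2 : p ≠ 2) :
    (Subgroup.centralizer ({a} : Set G)).index = Nat.card (commutator G) := by
  obtain ⟨n, hn⟩ := ordp h.pgroup ⁅a, b⁆
  have hc := h.orderOf_comm_ab
  rw [← hc, hn]
  exact h.index_centralizer_eq hp2 a n (fun c => by rw [← hn, hc]; exact comm_pow_card _ _) b hn

theorem IsSetup.index_centralizer_b [Finite G] (h : IsSetup p A a b) (hp2 : p ≠ 2) :
    (Subgroup.centralizer ({b} : Set G)).index = Nat.card (commutator G) := by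
  obtain ⟨n, hn⟩ := ordp h.pgroup ⁅a, b⁆
  have hc := h.orderOf_comm_ab
  rw [← hc, hn]
  refine h.index_centralizer_eq hp2 b n (fun c => by rw [← hn, hc]; exact comm_pow_card _ _) a ?_
  rw [← commutatorElement_inv, orderOf_inv, hn]

theorem IsSetup.center_eq (h : IsSetup p A a b) :
    Subgroup.center G = Subgroup.centralizer ({a} : Set G) ⊓ Subgroup.centralizer ({b} : Set G) := by
  ext z
  rw [Subgroup.mem_inf, Subgroup.mem_centralizer_singleton_iff,
    Subgroup.mem_centralizer_singleton_iff, Subgroup.mem_center_iff]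
  constructor
  · intro hz
    exact ⟨(hz a).symm, (hz b).symm⟩
  · rintro ⟨h1, h2⟩ g
    obtain ⟨i, j, rfl⟩ := h.hb g
    have c1 : Commute z a := h1
    have c2 : Commute z b := h2
    exact (((c1.pow_right i).mul_right (c2.pow_right j)).eq).symm

theorem IsSetup.normal_centralizer_a (h : IsSetup p A a b) :
    (Subgroup.centralizer ({a} : Set G)).Normal := by
  constructor
  intro n hn g
  rw [Subgroup.mem_centralizer_singleton_iff] at hn ⊢
  have h1 : g⁻¹ * a * g ∈ A := by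
    have := h.normal.conj_mem a h.a_mem g⁻¹
    simpa using this
  rw [h.hA] at h1
  obtain ⟨k, hk⟩ := Subgroup.mem_zpowers_iff.mp h1
  have c1 : Commute n a := hn
  have c2 : Commute n (g⁻¹ * a * g) := by rw [← hk]; exact c1.zpow_right k
  have e1 : g * n * g⁻¹ * a = g * (n * (g⁻¹ * a * g)) * g⁻¹ := by group
  have e2 : a * (g * n * g⁻¹) = g * ((g⁻¹ * a * g) * n) * g⁻¹ := by group
  rw [e1, e2, c2.eq]

/-- `|G : Z(G)| = |G'|²`. -/
theorem IsSetup.index_center [Finite G] (h : IsSetup p A a b) (hp2 : p ≠ 2) :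
    (Subgroup.center G).index = Nat.card (commutator G) ^ 2 := by
  haveI := h.normal_centralizer_a
  obtain ⟨Ca, hCa⟩ : ∃ Ca, Ca = Subgroup.centralizer ({a} : Set G) := ⟨_, rfl⟩
  obtain ⟨Cb, hCb⟩ : ∃ Cb, Cb = Subgroup.centralizer ({b} : Set G) := ⟨_, rfl⟩
  have hn : Ca.Normal := by rw [hCa]; infer_instance
  have htop : Cb ⊔ Ca = ⊤ := by
    rw [eq_top_iff]
    intro g _
    obtain ⟨i, j, rfl⟩ := h.hb g
    refine Subgroup.mul_mem _ (Subgroup.mem_sup_right ?_) (Subgroup.mem_sup_left ?_)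
    · rw [hCa]
      exact Subgroup.pow_mem _ (Subgroup.mem_centralizer_singleton_iff.mpr rfl) _
    · rw [hCb]
      exact Subgroup.pow_mem _ (Subgroup.mem_centralizer_singleton_iff.mpr rfl) _
  have h1 : Ca.relIndex Cb = Ca.index := by
    rw [← Subgroup.relIndex_sup_right, htop, Subgroup.relIndex_top_right]
  rw [h.center_eq, ← hCa, ← hCb, ← Subgroup.relIndex_mul_index (inf_le_right : Ca ⊓ Cb ≤ Cb),
    Subgroup.inf_relIndex_right, h1, hCa, hCb, h.index_centralizer_a hp2,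
    h.index_centralizer_b hp2, sq]


theorem IsSetup.comm_ab_a (h : IsSetup p A a b) (i j : ℕ) : ⁅a ^ i * b ^ j, a⁆ = ⁅b ^ j, a⁆ := by
  have c1 : Commute (a ^ i) ⁅b ^ j, a⁆ := h.commute_of_mem (A.pow_mem h.a_mem _) (h.comm _ _)
  rw [comm_mul_left, commutatorElement_eq_one_iff_commute.mpr ((Commute.refl a).pow_left i),
    mul_one, c1.eq, mul_inv_cancel_right]

theorem IsSetup.comm_ab_b (i j : ℕ) : ⁅a ^ i * b ^ j, b⁆ = ⁅a ^ i, b⁆ := by
  rw [comm_mul_left, commutatorElement_eq_one_iff_commute.mpr ((Commute.refl b).pow_left j),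
    mul_one, mul_inv_cancel, one_mul]

theorem IsSetup.mem_closure_of_comm (h : IsSetup p A a b) (hp2 : p ≠ 2) (n : ℕ)
    (hn : Nat.card (commutator G) = p ^ n) (s : ℕ) (hs : s ≤ n) (g : G)
    (h1 : ⁅g, a⁆ ^ p ^ (n - s) = 1) (h2 : ⁅g, b⁆ ^ p ^ (n - s) = 1) :
    ∃ i j : ℕ, g = (a ^ i) ^ p ^ s * (b ^ j) ^ p ^ s := by
  have hp : p.Prime := Fact.out
  obtain ⟨i, j, rfl⟩ := h.hb g
  have ho : orderOf ⁅a, b⁆ = p ^ n := by rw [h.orderOf_comm_ab, hn]
  have ho' : orderOf ⁅b, a⁆ = p ^ n := by rw [← commutatorElement_inv, orderOf_inv, ho]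
  have hsplit : p ^ n = p ^ s * p ^ (n - s) := by rw [← pow_add]; congr 1; omega
  rw [h.comm_ab_a, h.comm_pow_left_eq_one_iff hp2, ← orderOf_dvd_iff_pow_eq_one, ho', hsplit] at h1
  rw [IsSetup.comm_ab_b, h.comm_pow_left_eq_one_iff hp2, ← orderOf_dvd_iff_pow_eq_one, ho,
    hsplit] at h2
  obtain ⟨j', rfl⟩ := Nat.dvd_of_mul_dvd_mul_right (pow_pos hp.pos _) h1
  obtain ⟨i', rfl⟩ := Nat.dvd_of_mul_dvd_mul_right (pow_pos hp.pos _) h2
  exact ⟨i', j', by rw [← pow_mul, ← pow_mul, mul_comm i', mul_comm j']⟩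

theorem IsSetup.comm_pow_eq_one_of_mem_closure (h : IsSetup p A a b) (hp2 : p ≠ 2) (n : ℕ)
    (hn : Nat.card (commutator G) = p ^ n) (s : ℕ) (hs : s ≤ n) (g : G)
    (hg : g ∈ Subgroup.closure {x : G | ∃ y : G, y ^ p ^ s = x}) (c : G) :
    ⁅g, c⁆ ^ p ^ (n - s) = 1 := by
  induction hg using Subgroup.closure_induction with
  | mem x hx =>
    obtain ⟨y, rfl⟩ := hx
    rw [h.comm_pow_left_eq_one_iff hp2, ← pow_add, Nat.add_sub_cancel' hs, ← hn]
    exact comm_pow_card _ _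
  | one => simp
  | mul x y _ _ hx hy =>
    have c1 : Commute (x * ⁅y, c⁆ * x⁻¹) ⁅x, c⁆ :=
      h.commute_of_mem (h.normal.conj_mem _ (h.comm _ _) _) (h.comm _ _)
    rw [comm_mul_left, c1.mul_pow, conj_pow, hx, hy]; simp
  | inv x _ hx =>
    have e : ⁅x⁻¹, c⁆ = x⁻¹ * ⁅x, c⁆⁻¹ * (x⁻¹)⁻¹ := by
      simp only [commutatorElement_def]; group
    rw [e, conj_pow, inv_pow, hx]; simp

theorem IsSetup.mem_closure_pow_iff [Finite G] (h : IsSetup p A a b) (hp2 : p ≠ 2) (n : ℕ)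
    (hn : Nat.card (commutator G) = p ^ n) (s : ℕ) (hs : s ≤ n) (g : G) :
    g ∈ Subgroup.closure {x : G | ∃ y : G, y ^ p ^ s = x} ↔
      (Subgroup.centralizer ({g} : Set G)).index ≤ p ^ (n - s) := by
  rw [h.index_centralizer_le_iff hp2]
  constructor
  · intro hg c
    exact h.comm_pow_eq_one_of_mem_closure hp2 n hn s hs g hg c
  · intro hall
    obtain ⟨i, j, rfl⟩ := h.mem_closure_of_comm hp2 n hn s hs g (hall a) (hall b)
    exact Subgroup.mul_mem _ (Subgroup.subset_closure ⟨_, rfl⟩) (Subgroup.subset_closure ⟨_, rfl⟩)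

theorem IsSetup.closure_pow_eq_center [Finite G] (h : IsSetup p A a b) (hp2 : p ≠ 2) (n : ℕ)
    (hn : Nat.card (commutator G) = p ^ n) :
    Subgroup.closure {x : G | ∃ y : G, y ^ p ^ n = x} = Subgroup.center G := by
  ext g
  rw [h.mem_closure_pow_iff hp2 n hn n le_rfl, Nat.sub_self, pow_zero]
  have h0 : (Subgroup.centralizer ({g} : Set G)).index ≠ 0 := Subgroup.index_ne_zero_of_finite
  have h1 : (Subgroup.centralizer ({g} : Set G)).index ≤ 1 ↔
      (Subgroup.centralizer ({g} : Set G)).index = 1 := by omega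
  rw [h1, Subgroup.index_eq_one, Subgroup.centralizer_eq_top_iff_subset, Set.singleton_subset_iff]
  rfl

end

end Cfsg.Agent.Lib.Helper4.MC
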