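import Cfsg.Agent.Lib.Helper4.Metacyclic

set_option autoImplicit false

namespace Cfsg.Agent.Lib.Helper4.MC

open scoped commutatorElement

variable {G : Type*} [Group G] {p : ℕ} [Fact p.Prime] {A : Subgroup G} {a b : G}

theorem IsSetup.normal_centralizer_of_mem (h : IsSetup p A a b) {x : G} (hx : x ∈ A) :
    (Subgroup.centralizer ({x} : Set G)).Normal := by
  constructor
  intro n hn g
  rw [Subgroup.mem_centralizer_singleton_iff] at hn ⊢
  obtain ⟨ρ, _, hact⟩ := h.acts g⁻¹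
  have h1 : g⁻¹ * x * g = x ^ ρ := by
    have := hact x hx
    simpa using this
  have c1 : Commute n x := hn
  have c2 : Commute n (g⁻¹ * x * g) := by rw [h1]; exact c1.pow_right ρ
  have e1 : g * n * g⁻¹ * x = g * (n * (g⁻¹ * x * g)) * g⁻¹ := by group
  have e2 : x * (g * n * g⁻¹) = g * ((g⁻¹ * x * g) * n) * g⁻¹ := by group
  rw [e1, e2, c2.eq]

theorem orderOf_eq_of_forall {z : G} {m : ℕ} (h : ∀ K : ℕ, z ^ K = 1 ↔ m ∣ K) : orderOf z = m :=
  Nat.dvd_antisymm (orderOf_dvd_of_pow_eq_one ((h m).mpr dvd_rfl))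
    ((h _).mp (pow_orderOf_eq_one z))

theorem IsSetup.orderOf_comm_pow (h : IsSetup p A a b) (hp2 : p ≠ 2) (n : ℕ)
    (hn : Nat.card (commutator G) = p ^ n) (s : ℕ) (hs : s ≤ n) :
    orderOf ⁅a ^ p ^ (n - s), b⁆ = p ^ s ∧ orderOf ⁅b ^ p ^ (n - s), a⁆ = p ^ s := by
  have hp : p.Prime := Fact.out
  have ho : orderOf ⁅a, b⁆ = p ^ n := by rw [h.orderOf_comm_ab, hn]
  have ho' : orderOf ⁅b, a⁆ = p ^ n := by rw [← commutatorElement_inv, orderOf_inv, ho]
  have hsplit : p ^ n = p ^ (n - s) * p ^ s := by rw [← pow_add]; congr 1; omega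
  constructor
  · apply orderOf_eq_of_forall
    intro K
    rw [h.comm_pow_left_eq_one_iff hp2, ← orderOf_dvd_iff_pow_eq_one, ho, hsplit]
    exact Nat.mul_dvd_mul_iff_left (pow_pos hp.pos _)
  · apply orderOf_eq_of_forall
    intro K
    rw [h.comm_pow_left_eq_one_iff hp2, ← orderOf_dvd_iff_pow_eq_one, ho', hsplit]
    exact Nat.mul_dvd_mul_iff_left (pow_pos hp.pos _)

/-- the subgroup of elements with class size at most `p ^ (n - s)` -/
def Wsub (p : ℕ) (a b : G) (e : ℕ) : Subgroup G :=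
  Subgroup.centralizer ({a ^ p ^ e} : Set G) ⊓ Subgroup.centralizer ({b ^ p ^ e} : Set G)

theorem IsSetup.index_Wsub [Finite G] (h : IsSetup p A a b) (hp2 : p ≠ 2) (n : ℕ)
    (hn : Nat.card (commutator G) = p ^ n) (s : ℕ) (hs : s ≤ n) :
    (Wsub p a b (n - s)).index = p ^ (2 * s) := by
  have hsplit : p ^ (n - s) * p ^ s = p ^ n := by rw [← pow_add]; congr 1; omega
  obtain ⟨o1, o2⟩ := h.orderOf_comm_pow hp2 n hn s hs
  have i1 : (Subgroup.centralizer ({a ^ p ^ (n - s)} : Set G)).index = p ^ s := by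
    refine h.index_centralizer_eq hp2 _ s (fun c => ?_) b o1
    rw [h.comm_pow_left_eq_one_iff hp2, hsplit, ← hn]; exact comm_pow_card _ _
  have i2 : (Subgroup.centralizer ({b ^ p ^ (n - s)} : Set G)).index = p ^ s := by
    refine h.index_centralizer_eq hp2 _ s (fun c => ?_) a o2
    rw [h.comm_pow_left_eq_one_iff hp2, hsplit, ← hn]; exact comm_pow_card _ _
  obtain ⟨Ca, hCa⟩ : ∃ Ca, Ca = Subgroup.centralizer ({a ^ p ^ (n - s)} : Set G) := ⟨_, rfl⟩
  obtain ⟨Cb, hCb⟩ : ∃ Cb, Cb = Subgroup.centralizer ({b ^ p ^ (n - s)} : Set G) := ⟨_, rfl⟩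
  have hnorm : Ca.Normal := by
    rw [hCa]; exact h.normal_centralizer_of_mem (A.pow_mem h.a_mem _)
  have htop : Cb ⊔ Ca = ⊤ := by
    rw [eq_top_iff]
    intro g _
    obtain ⟨i, j, rfl⟩ := h.hb g
    refine Subgroup.mul_mem _ (Subgroup.mem_sup_right ?_) (Subgroup.mem_sup_left ?_)
    · rw [hCa, Subgroup.mem_centralizer_singleton_iff]
      exact ((Commute.refl a).pow_pow _ _).eq
    · rw [hCb, Subgroup.mem_centralizer_singleton_iff]
      exact ((Commute.refl b).pow_pow _ _).eq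
  have h1 : Ca.relIndex Cb = Ca.index := by
    rw [← Subgroup.relIndex_sup_right, htop, Subgroup.relIndex_top_right]
  unfold Wsub
  rw [← hCa, ← hCb, ← Subgroup.relIndex_mul_index (inf_le_right : Ca ⊓ Cb ≤ Cb),
    Subgroup.inf_relIndex_right, h1, hCa, hCb, i1, i2, ← pow_add, two_mul]

theorem IsSetup.mem_Wsub_iff [Finite G] (h : IsSetup p A a b) (hp2 : p ≠ 2) (n : ℕ)
    (hn : Nat.card (commutator G) = p ^ n) (s : ℕ) (hs : s ≤ n) (g : G) :
    g ∈ Wsub p a b (n - s) ↔ (Subgroup.centralizer ({g} : Set G)).index ≤ p ^ (n - s) := by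
  unfold Wsub
  rw [Subgroup.mem_inf, mem_centralizer_singleton_iff_comm, mem_centralizer_singleton_iff_comm]
  have e1 : ∀ x : G, ⁅x ^ p ^ (n - s), g⁆ = 1 ↔ ⁅g, x⁆ ^ p ^ (n - s) = 1 := by
    intro x
    have := h.comm_pow_left_eq_one_iff hp2 x g (p ^ (n - s)) 1
    rw [pow_one, mul_one] at this
    rw [this, ← commutatorElement_inv g x, inv_pow, inv_eq_one]
  rw [e1, e1]
  constructor
  · rintro ⟨h1, h2⟩
    rw [← h.mem_closure_pow_iff hp2 n hn s hs]
    obtain ⟨i, j, rfl⟩ := h.mem_closure_of_comm hp2 n hn s hs g h1 h2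
    exact Subgroup.mul_mem _ (Subgroup.subset_closure ⟨_, rfl⟩) (Subgroup.subset_closure ⟨_, rfl⟩)
  · intro hle
    have := (h.index_centralizer_le_iff hp2 g (n - s)).mp hle
    exact ⟨this a, this b⟩

theorem IsSetup.card_Wsub [Finite G] (h : IsSetup p A a b) (hp2 : p ≠ 2) (n : ℕ)
    (hn : Nat.card (commutator G) = p ^ n) (i : ℕ) (hi : i ≤ n) :
    Nat.card (Wsub p a b i) = Nat.card (Subgroup.center G) * p ^ (2 * i) := by
  have hp : p.Prime := Fact.out
  have h1 := h.index_Wsub hp2 n hn (n - i) (Nat.sub_le _ _)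
  rw [Nat.sub_sub_self hi] at h1
  have h2 := (Wsub p a b i).card_mul_index
  have h3 := (Subgroup.center G).card_mul_index
  rw [h.index_center hp2, hn] at h3
  rw [h1, ← h3] at h2
  have h4 : (p ^ n) ^ 2 = p ^ (2 * i) * p ^ (2 * (n - i)) := by
    rw [← pow_mul, ← pow_add]; congr 1; omega
  rw [h4, ← mul_assoc] at h2
  exact Nat.eq_of_mul_eq_mul_right (pow_pos hp.pos _) h2

theorem IsSetup.card_class_size [Finite G] (h : IsSetup p A a b) (hp2 : p ≠ 2) (n : ℕ)
    (hn : Nat.card (commutator G) = p ^ n) (i : ℕ) (hi : 1 ≤ i) (hin : i ≤ n) :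
    Nat.card {g : G // (Subgroup.centralizer ({g} : Set G)).index = p ^ i} =
      Nat.card (Subgroup.center G) * (p ^ (2 * i) - p ^ (2 * i - 2)) := by
  have hp : p.Prime := Fact.out
  have m1 : ∀ g, g ∈ Wsub p a b i ↔ (Subgroup.centralizer ({g} : Set G)).index ≤ p ^ i := by
    intro g
    have := h.mem_Wsub_iff hp2 n hn (n - i) (Nat.sub_le _ _) g
    rwa [Nat.sub_sub_self hin] at this
  have m2 : ∀ g, g ∈ Wsub p a b (i - 1) ↔
      (Subgroup.centralizer ({g} : Set G)).index ≤ p ^ (i - 1) := by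
    intro g
    have := h.mem_Wsub_iff hp2 n hn (n - (i - 1)) (Nat.sub_le _ _) g
    rwa [Nat.sub_sub_self (by omega)] at this
  have hset : {g : G | (Subgroup.centralizer ({g} : Set G)).index = p ^ i} =
      (Wsub p a b i : Set G) \ (Wsub p a b (i - 1) : Set G) := by
    ext g
    simp only [Set.mem_ofPred_eq, Set.mem_sdiff, SetLike.mem_coe]
    rw [m1, m2]
    obtain ⟨k, hk⟩ := h.pgroup.index (Subgroup.centralizer ({g} : Set G))
    rw [hk, Nat.pow_le_pow_iff_right hp.one_lt, Nat.pow_le_pow_iff_right hp.one_lt,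
      Nat.pow_right_inj hp.two_le]
    omega
  have hsub : (Wsub p a b (i - 1) : Set G) ⊆ (Wsub p a b i : Set G) := by
    intro g hg
    rw [SetLike.mem_coe, m2] at hg
    rw [SetLike.mem_coe, m1]
    exact le_trans hg (Nat.pow_le_pow_right hp.pos (Nat.sub_le _ _))
  have hc : Nat.card {g : G // (Subgroup.centralizer ({g} : Set G)).index = p ^ i} =
      {g : G | (Subgroup.centralizer ({g} : Set G)).index = p ^ i}.ncard := rfl
  rw [hc, hset, Set.ncard_sdiff hsub (Set.toFinite _)]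
  have c1 : (Wsub p a b i : Set G).ncard = Nat.card (Wsub p a b i) := rfl
  have c2 : (Wsub p a b (i - 1) : Set G).ncard = Nat.card (Wsub p a b (i - 1)) := rfl
  have e2 : 2 * (i - 1) = 2 * i - 2 := by omega
  rw [c1, c2, h.card_Wsub hp2 n hn i hin, h.card_Wsub hp2 n hn (i - 1) (by omega), e2, Nat.mul_sub]

end Cfsg.Agent.Lib.Helper4.MC
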