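import Cfsg.Agent.Lib.Helper4.Metacyclic2

set_option autoImplicit false

namespace Cfsg.Agent.Lib.Helper4.MC

open scoped commutatorElement

variable {G : Type*} [Group G] {p : ℕ} [Fact p.Prime] {A : Subgroup G} {a b : G}

omit [Fact p.Prime] in
theorem relIndex_centralizer_le (K : Subgroup G) (x : G) (T : Set G) (hT : T.Finite)
    (h : ∀ c ∈ K, ⁅c, x⁆ ∈ T) : (Subgroup.centralizer ({x} : Set G)).relIndex K ≤ T.ncard := by
  classical
  rw [Subgroup.relIndex, Subgroup.index]
  have hfin : Finite T := hT
  have key : ∀ c1 c2 : G, (c1⁻¹ * c2) * x = x * (c1⁻¹ * c2) ↔ ⁅c1, x⁆ = ⁅c2, x⁆ := by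
    intro c1 c2
    simp only [commutatorElement_def]
    constructor
    · intro hc
      have e : c2 * x * c2⁻¹ = c1 * ((c1⁻¹ * c2) * x) * c2⁻¹ := by group
      rw [e, hc]; group
    · intro hc
      have e1 : c1 * x * c1⁻¹ = c2 * x * c2⁻¹ := mul_right_cancel hc
      have e2 : c1⁻¹ * c2 * x = c1⁻¹ * (c2 * x * c2⁻¹) * c2 := by group
      rw [e2, ← e1]; group
  let f : (K ⧸ ((Subgroup.centralizer ({x} : Set G)).subgroupOf K)) → T := fun q =>
    Quotient.liftOn' q (fun c => (⟨⁅(c : G), x⁆, h c c.2⟩ : T)) (by
      intro c1 c2 hc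
      rw [QuotientGroup.leftRel_apply, Subgroup.mem_subgroupOf,
        Subgroup.mem_centralizer_singleton_iff] at hc
      apply Subtype.ext
      exact (key c1 c2).mp (by simpa using hc))
  have hf : Function.Injective f := by
    intro q1 q2
    induction q1 using Quotient.inductionOn' with
    | h c1 =>
      induction q2 using Quotient.inductionOn' with
      | h c2 =>
        intro hq
        apply Quotient.sound'
        rw [QuotientGroup.leftRel_apply, Subgroup.mem_subgroupOf,
          Subgroup.mem_centralizer_singleton_iff]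
        have := (key c1 c2).mpr (congrArg Subtype.val hq)
        simpa using this
  exact Nat.card_le_card_of_injective f hf

omit [Fact p.Prime] in
theorem relIndex_mul_card' {H K : Subgroup G} (h : H ≤ K) :
    H.relIndex K * Nat.card H = Nat.card K := by
  have := Subgroup.relIndex_mul_relIndex ⊥ H K bot_le h
  rwa [Subgroup.relIndex_bot_left, Subgroup.relIndex_bot_left, mul_comm] at this

theorem exists_step [Finite G] (hG : IsPGroup p G) {R T : Subgroup G} (hlt : R < T) :
    ∃ R1 : Subgroup G, R ≤ R1 ∧ R1 ≤ T ∧ Nat.card R1 = p * Nat.card R := by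
  have hp : p.Prime := Fact.out
  obtain ⟨n, hn⟩ := (hG.to_subgroup R).exists_card_eq
  obtain ⟨t, ht⟩ := (hG.to_subgroup T).exists_card_eq
  have hnt : n < t := by
    by_contra hcon
    push Not at hcon
    have : Nat.card T ≤ Nat.card R := by
      rw [hn, ht]; exact Nat.pow_le_pow_right hp.pos hcon
    exact hlt.ne (Subgroup.eq_of_le_of_card_ge hlt.le this)
  have hH : Nat.card (R.subgroupOf T) = p ^ n := by
    rw [← hn]; exact Nat.card_congr (Subgroup.subgroupOfEquivOfLe hlt.le).toEquiv
  have hdvd : p ^ (n + 1) ∣ Nat.card T := by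
    rw [ht]; exact pow_dvd_pow p hnt
  obtain ⟨K, hK, hHK⟩ := Sylow.exists_subgroup_card_pow_succ hdvd hH
  refine ⟨K.map T.subtype, ?_, ?_, ?_⟩
  · intro r hr
    exact ⟨⟨r, hlt.le hr⟩, hHK (Subgroup.mem_subgroupOf.mpr hr), rfl⟩
  · rintro _ ⟨k, _, rfl⟩
    exact k.2
  · rw [Subgroup.card_map_of_injective T.subtype_injective, hK, hn, pow_succ, mul_comm]

theorem IsSetup.card_centralizer_le [Finite G] (h : IsSetup p A a b) (hp2 : p ≠ 2)
    {R R1 : Subgroup G} (hle : R ≤ R1) (hcard : Nat.card R1 = p * Nat.card R) :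
    Nat.card (Subgroup.centralizer (R : Set G)) ≤
      p * Nat.card (Subgroup.centralizer (R1 : Set G)) := by
  have hp : p.Prime := Fact.out
  have hRpos : 0 < Nat.card R := Nat.card_pos
  obtain ⟨x, hx1, hxR⟩ : ∃ x ∈ R1, x ∉ R := by
    by_contra hcon
    push Not at hcon
    have : R1 = R := le_antisymm hcon hle
    rw [this] at hcard
    have := hp.one_lt
    nlinarith
  have hrel : R.relIndex R1 = p := by
    have := relIndex_mul_card' hle
    rw [hcard] at this
    exact Nat.eq_of_mul_eq_mul_right hRpos this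
  have hxp : x ^ p ∈ R := by
    obtain ⟨k, hk⟩ := (h.pgroup.to_subgroup R1).exists_card_eq
    have hk0 : k ≠ 0 := by
      rintro rfl
      rw [pow_zero] at hk
      rw [hk] at hcard
      have := hp.one_lt
      nlinarith
    have hnorm : (R.subgroupOf R1).Normal := by
      apply Subgroup.normal_of_index_eq_minFac_card
      rw [hk, hp.pow_minFac hk0]
      exact hrel
    have := Subgroup.pow_index_mem (R.subgroupOf R1) (⟨x, hx1⟩ : R1)
    rw [Subgroup.mem_subgroupOf] at this
    have hi : (R.subgroupOf R1).index = p := hrel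
    rw [hi] at this
    simpa using this
  have hS : R ⊔ Subgroup.zpowers x = R1 := by
    have hSle : R ⊔ Subgroup.zpowers x ≤ R1 := sup_le hle (by rwa [Subgroup.zpowers_le])
    obtain ⟨m, hm⟩ := Subgroup.card_dvd_of_le (le_sup_left : R ≤ R ⊔ Subgroup.zpowers x)
    have h2 := Subgroup.card_dvd_of_le hSle
    rw [hm, hcard, mul_comm p] at h2
    have h3 : m ∣ p := Nat.dvd_of_mul_dvd_mul_left hRpos h2
    rcases (Nat.dvd_prime hp).mp h3 with rfl | rfl
    · exfalso
      have h4 : R = R ⊔ Subgroup.zpowers x :=
        Subgroup.eq_of_le_of_card_ge le_sup_left (by rw [hm, mul_one])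
      apply hxR
      rw [h4]
      exact Subgroup.mem_sup_right (Subgroup.mem_zpowers x)
    · exact Subgroup.eq_of_le_of_card_ge hSle (by rw [hm, hcard, mul_comm])
  have hd : Subgroup.centralizer ({x} : Set G) ⊓ Subgroup.centralizer (R : Set G) ≤
      Subgroup.centralizer (R1 : Set G) := by
    intro c hc
    rw [Subgroup.mem_inf, Subgroup.mem_centralizer_singleton_iff] at hc
    obtain ⟨hc1, hc2⟩ := hc
    have h5 : R1 ≤ Subgroup.centralizer ({c} : Set G) := by
      rw [← hS]
      refine sup_le ?_ ?_
      · intro r hr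
        rw [Subgroup.mem_centralizer_singleton_iff]
        exact hc2 r hr
      · rw [Subgroup.zpowers_le, Subgroup.mem_centralizer_singleton_iff]
        exact hc1.symm
    intro r hr
    exact Subgroup.mem_centralizer_singleton_iff.mp (h5 hr)
  have he : (Subgroup.centralizer ({x} : Set G)).relIndex (Subgroup.centralizer (R : Set G)) ≤ p := by
    refine le_trans (relIndex_centralizer_le _ x {y : G | y ∈ A ∧ y ^ p = 1} (Set.toFinite _) ?_)
      (h.ncard_pow_eq_one_le hp.pos)
    intro c hc
    refine ⟨h.comm _ _, ?_⟩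
    have h6 : ⁅c, x ^ p⁆ = 1 := by
      rw [commutatorElement_eq_one_iff_mul_comm]
      exact (hc _ hxp).symm
    have := (h.comm_pow_right_eq_one_iff hp2 c x p 1).mp (by rw [pow_one]; exact h6)
    rwa [mul_one] at this
  have hf := relIndex_mul_card' (inf_le_right :
    Subgroup.centralizer ({x} : Set G) ⊓ Subgroup.centralizer (R : Set G) ≤
      Subgroup.centralizer (R : Set G))
  rw [Subgroup.inf_relIndex_right] at hf
  rw [← hf]
  exact Nat.mul_le_mul he (Subgroup.card_le_of_le hd)

/-- the Chermak–Delgado measure -/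
noncomputable def cdm (R : Subgroup G) : ℕ :=
  Nat.card R * Nat.card (Subgroup.centralizer (R : Set G))

theorem IsSetup.cdm_mono [Finite G] (h : IsSetup p A a b) (hp2 : p ≠ 2) {R T : Subgroup G}
    (hle : R ≤ T) : cdm R ≤ cdm T := by
  have hp : p.Prime := Fact.out
  obtain ⟨k, hk⟩ : ∃ k, k = Nat.card T - Nat.card R := ⟨_, rfl⟩
  induction k using Nat.strong_induction_on generalizing R with
  | _ k ih =>
    rcases eq_or_lt_of_le hle with rfl | hlt
    · exact le_rfl
    · obtain ⟨R1, h1, h2, h3⟩ := exists_step h.pgroup hlt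
      have hRpos : 0 < Nat.card R := Nat.card_pos
      have h4 : Nat.card R < Nat.card R1 := by
        rw [h3]; have := hp.one_lt; nlinarith
      have h5 : Nat.card R1 ≤ Nat.card T := Subgroup.card_le_of_le h2
      have h6 := ih (Nat.card T - Nat.card R1) (by omega) h2 rfl
      refine le_trans ?_ h6
      unfold cdm
      rw [h3]
      have := h.card_centralizer_le hp2 h1 h3
      calc Nat.card R * Nat.card (Subgroup.centralizer (R : Set G))
          ≤ Nat.card R * (p * Nat.card (Subgroup.centralizer (R1 : Set G))) :=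
            Nat.mul_le_mul_left _ this
        _ = p * Nat.card R * Nat.card (Subgroup.centralizer (R1 : Set G)) := by ring

omit [Fact p.Prime] in
theorem cdm_top : cdm (⊤ : Subgroup G) = Nat.card G * Nat.card (Subgroup.center G) := by
  unfold cdm
  rw [Subgroup.card_top, Subgroup.coe_top, Subgroup.centralizer_univ]

omit [Fact p.Prime] in
theorem cdm_center : cdm (Subgroup.center G) = Nat.card G * Nat.card (Subgroup.center G) := by
  unfold cdm
  have : Subgroup.centralizer (Subgroup.center G : Set G) = ⊤ := by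
    rw [Subgroup.centralizer_eq_top_iff_subset]
  rw [this, Subgroup.card_top, mul_comm]

theorem IsSetup.cdm_eq [Finite G] (h : IsSetup p A a b) (hp2 : p ≠ 2) {R : Subgroup G}
    (hR : Subgroup.center G ≤ R) : cdm R = Nat.card G * Nat.card (Subgroup.center G) := by
  apply le_antisymm
  · rw [← cdm_top]; exact h.cdm_mono hp2 le_top
  · rw [← cdm_center]; exact h.cdm_mono hp2 hR

theorem IsSetup.cdm_lt [Finite G] (h : IsSetup p A a b) (hp2 : p ≠ 2) {R : Subgroup G}
    (hR : ¬ Subgroup.center G ≤ R) : cdm R < Nat.card G * Nat.card (Subgroup.center G) := by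
  rw [← h.cdm_eq hp2 (le_sup_right : Subgroup.center G ≤ R ⊔ Subgroup.center G)]
  unfold cdm
  have h1 : Subgroup.centralizer ((R ⊔ Subgroup.center G : Subgroup G) : Set G) =
      Subgroup.centralizer (R : Set G) := by
    apply le_antisymm
    · exact Subgroup.centralizer_le (by exact_mod_cast (le_sup_left : R ≤ R ⊔ Subgroup.center G))
    · intro c hc
      have h5 : R ⊔ Subgroup.center G ≤ Subgroup.centralizer ({c} : Set G) := by
        refine sup_le ?_ ?_
        · intro r hr
          rw [Subgroup.mem_centralizer_singleton_iff]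
          exact hc r hr
        · intro z hz
          rw [Subgroup.mem_centralizer_singleton_iff]
          exact (Subgroup.mem_center_iff.mp hz c).symm
      intro r hr
      exact Subgroup.mem_centralizer_singleton_iff.mp (h5 hr)
  rw [h1]
  apply Nat.mul_lt_mul_of_lt_of_le _ le_rfl Nat.card_pos
  by_contra hcon
  push Not at hcon
  have := Subgroup.eq_of_le_of_card_ge (le_sup_left : R ≤ R ⊔ Subgroup.center G) hcon
  apply hR
  rw [this]
  exact le_sup_right

end Cfsg.Agent.Lib.Helper4.MC
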