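import Cfsg.Agent.Lib.Helper4.Metacyclic3

set_option autoImplicit false

namespace Cfsg.Agent.Lib.Helper4.MC

open scoped commutatorElement

theorem MCyc.subgroup {G : Type*} [Group G] (hm : MCyc G) (K : Subgroup G) : MCyc K := by
  obtain ⟨N, hN, hc, hq⟩ := hm
  let f : K →* G ⧸ N := (QuotientGroup.mk' N).comp K.subtype
  refine ⟨f.ker, inferInstance, ?_, ?_⟩
  · let φ : f.ker →* N := (K.subtype.comp f.ker.subtype).codRestrict N (by
      intro x
      have := x.2
      rw [MonoidHom.mem_ker] at this
      exact (QuotientGroup.eq_one_iff _).mp this)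
    have hφ : Function.Injective φ := by
      intro x y hxy
      have := congrArg Subtype.val hxy
      exact Subtype.ext (Subtype.ext this)
    exact isCyclic_of_injective φ hφ
  · exact isCyclic_of_injective (QuotientGroup.kerLift f) (QuotientGroup.kerLift_injective f)

theorem card_commutator_congr {X Y : Type*} [Group X] [Group Y] (e : X ≃* Y) :
    Nat.card (commutator X) = Nat.card (commutator Y) := by
  have h1 : (commutator X).map e.toMonoidHom = commutator Y := by
    rw [commutator_def, commutator_def, Subgroup.map_commutator,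
      Subgroup.map_top_of_surjective _ e.surjective]
  rw [← h1, Subgroup.card_map_of_injective e.injective]

theorem comm_bot_iff {G : Type*} [Group G] (L : Subgroup G) :
    commutator L = ⊥ ↔ ∀ x ∈ L, ∀ y ∈ L, x * y = y * x := by
  rw [commutator_def, Subgroup.commutator_eq_bot_iff_le_centralizer]
  constructor
  · intro h x hx y hy
    have := h (Subgroup.mem_top (⟨y, hy⟩ : L)) ⟨x, hx⟩ (Subgroup.mem_top _)
    exact congrArg Subtype.val this
  · intro h y _ x _
    exact Subtype.ext (h x.1 x.2 y.1 y.2)

theorem comm_bot_iff_isMulCommutative {G : Type*} [Group G] (L : Subgroup G) :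
    commutator L = ⊥ ↔ IsMulCommutative L := by
  rw [comm_bot_iff]
  constructor
  · intro h
    exact ⟨⟨fun x y => Subtype.ext (h x.1 x.2 y.1 y.2)⟩⟩
  · intro h x hx y hy
    exact congrArg Subtype.val (h.is_comm.comm ⟨x, hx⟩ ⟨y, hy⟩)

variable {G : Type*} [Group G] {p : ℕ} [Fact p.Prime]

theorem sup_zpowers_eq [Finite G] {R R1 : Subgroup G} (hle : R ≤ R1)
    (hcard : Nat.card R1 = p * Nat.card R) {x : G} (hx1 : x ∈ R1) (hxR : x ∉ R) :
    R ⊔ Subgroup.zpowers x = R1 := by
  have hp : p.Prime := Fact.out
  have hRpos : 0 < Nat.card R := Nat.card_pos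
  have hSle : R ⊔ Subgroup.zpowers x ≤ R1 := sup_le hle (by rwa [Subgroup.zpowers_le])
  obtain ⟨m, hm⟩ := Subgroup.card_dvd_of_le (le_sup_left : R ≤ R ⊔ Subgroup.zpowers x)
  have h2 := Subgroup.card_dvd_of_le hSle
  rw [hm, hcard, mul_comm p] at h2
  have h3 : m ∣ p := Nat.dvd_of_mul_dvd_mul_left hRpos h2
  rcases (Nat.dvd_prime hp).mp h3 with rfl | rfl
  · exfalso
    have h4 : R = R ⊔ Subgroup.zpowers x :=
      Subgroup.eq_of_le_of_card_ge le_sup_left (by rw [hm, mul_one])
    apply hxR
    rw [h4]
    exact Subgroup.mem_sup_right (Subgroup.mem_zpowers x)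
  · exact Subgroup.eq_of_le_of_card_ge hSle (by rw [hm, hcard, mul_comm])

theorem index_center_of_mcyc [Finite G] (hp2 : p ≠ 2) (hG : IsPGroup p G) (hm : MCyc G) :
    (Subgroup.center G).index = Nat.card (commutator G) ^ 2 := by
  obtain ⟨N, hN, hc, hq⟩ := hm
  obtain ⟨a, b, h⟩ := exists_setup hG N hc hq
  exact h.index_center hp2

/-- a maximal subgroup of a nonabelian metacyclic `p`-group has derived subgroup of index `p` in `G'` -/
theorem card_commutator_of_index [Finite G] (hp2 : p ≠ 2) (hG : IsPGroup p G) (hm : MCyc G)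
    (M : Subgroup G) (hM : M.index = p) (hna : commutator G ≠ ⊥) :
    p * Nat.card (commutator M) = Nat.card (commutator G) := by
  have hp : p.Prime := Fact.out
  have hm' := hm
  obtain ⟨N, hN, hc, hq⟩ := hm
  obtain ⟨a, b, h⟩ := exists_setup hG N hc hq
  obtain ⟨n, hn⟩ := (hG.to_subgroup (commutator G)).exists_card_eq
  have hn0 : n ≠ 0 := by
    rintro rfl
    rw [pow_zero] at hn
    exact hna (Subgroup.card_eq_one.mp hn)
  have hcardG : Nat.card G = p * Nat.card M := by
    rw [← M.card_mul_index, hM, mul_comm]
  have hMpos : 0 < Nat.card M := Nat.card_pos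
  have hnorm : M.Normal := by
    obtain ⟨k, hk⟩ := hG.exists_card_eq
    have hk0 : k ≠ 0 := by
      rintro rfl
      rw [pow_zero] at hk
      rw [hk] at hcardG
      have := hp.one_lt
      nlinarith
    apply Subgroup.normal_of_index_eq_minFac_card
    rw [hk, hp.pow_minFac hk0, hM]
  have hZM : Subgroup.center G ≤ M := by
    rw [← h.closure_pow_eq_center hp2 n hn, Subgroup.closure_le]
    rintro _ ⟨y, rfl⟩
    obtain ⟨n', rfl⟩ : ∃ n', n = n' + 1 := ⟨n - 1, by omega⟩
    rw [pow_succ, pow_mul, SetLike.mem_coe, ← hM]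
    exact Subgroup.pow_index_mem M _
  have hcd := h.cdm_eq hp2 hZM
  unfold cdm at hcd
  rw [hcardG, mul_comm p, mul_assoc] at hcd
  have hCM : Nat.card (Subgroup.centralizer (M : Set G)) = p * Nat.card (Subgroup.center G) :=
    Nat.eq_of_mul_eq_mul_left hMpos hcd
  have hCle : Subgroup.centralizer (M : Set G) ≤ M := by
    intro c hc
    by_contra hcM
    have htop : M ⊔ Subgroup.zpowers c = ⊤ :=
      sup_zpowers_eq (p := p) le_top (by rw [Subgroup.card_top, hcardG]) (Subgroup.mem_top c) hcM
    have h5 : (⊤ : Subgroup G) ≤ Subgroup.centralizer ({c} : Set G) := by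
      rw [← htop]
      refine sup_le ?_ ?_
      · intro r hr
        rw [Subgroup.mem_centralizer_singleton_iff]
        exact hc r hr
      · rw [Subgroup.zpowers_le, Subgroup.mem_centralizer_singleton_iff]
    apply hcM
    apply hZM
    rw [Subgroup.mem_center_iff]
    intro g
    exact Subgroup.mem_centralizer_singleton_iff.mp (h5 (Subgroup.mem_top g))
  have hcen : (Subgroup.center M).map M.subtype = Subgroup.centralizer (M : Set G) := by
    ext x
    constructor
    · rintro ⟨z, hz, rfl⟩ m hm
      have := Subgroup.mem_center_iff.mp hz ⟨m, hm⟩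
      exact congrArg Subtype.val this
    · intro hx
      refine ⟨⟨x, hCle hx⟩, ?_, rfl⟩
      rw [SetLike.mem_coe, Subgroup.mem_center_iff]
      intro m
      exact Subtype.ext (hx m.1 m.2)
  have hcen' : Nat.card (Subgroup.center M) = p * Nat.card (Subgroup.center G) := by
    rw [← hCM, ← hcen, Subgroup.card_map_of_injective M.subtype_injective]
  have t1 := index_center_of_mcyc hp2 (hG.to_subgroup M) (hm'.subgroup M)
  have t2 := h.index_center hp2
  have c1 := (Subgroup.center M).card_mul_index
  have c2 := (Subgroup.center G).card_mul_index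
  rw [t1, hcen'] at c1
  rw [t2, hcardG, ← c1] at c2
  have hZpos : 0 < Nat.card (Subgroup.center G) := Nat.card_pos
  have e : Nat.card (Subgroup.center G) * Nat.card (commutator G) ^ 2 =
      Nat.card (Subgroup.center G) * (p * Nat.card (commutator M)) ^ 2 := by
    rw [c2]; ring
  have e2 := Nat.eq_of_mul_eq_mul_left hZpos e
  exact (Nat.pow_left_injective (n := 2) (by norm_num) e2).symm

theorem key_card [Finite G] (hp2 : p ≠ 2) (hG : IsPGroup p G) (hm : MCyc G) (L : Subgroup G) :
    (commutator L = ⊥ ∧ Nat.card L ≤ (commutator G).index) ∨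
      (commutator L ≠ ⊥ ∧ Nat.card L = (commutator G).index * Nat.card (commutator L)) := by
  have hp : p.Prime := Fact.out
  obtain ⟨k, hk⟩ : ∃ k, k = Nat.card G - Nat.card L := ⟨_, rfl⟩
  induction k using Nat.strong_induction_on generalizing L with
  | _ k ih =>
    rcases eq_or_lt_of_le (le_top : L ≤ ⊤) with rfl | hlt
    · have e1 : Nat.card (commutator (⊤ : Subgroup G)) = Nat.card (commutator G) :=
        card_commutator_congr Subgroup.topEquiv
      have e2 := (commutator G).card_mul_index
      by_cases hb : commutator (⊤ : Subgroup G) = ⊥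
      · left
        refine ⟨hb, ?_⟩
        rw [hb, Subgroup.card_bot] at e1
        rw [← e1, one_mul] at e2
        rw [Subgroup.card_top, e2]
      · right
        refine ⟨hb, ?_⟩
        rw [Subgroup.card_top, e1, ← e2, mul_comm]
    · obtain ⟨L1, h1, _, h3⟩ := exists_step hG hlt
      have hLpos : 0 < Nat.card L := Nat.card_pos
      have h4 : Nat.card L < Nat.card L1 := by
        rw [h3]; have := hp.one_lt; nlinarith
      have h5 : Nat.card L1 ≤ Nat.card G := Subgroup.card_le_card_group L1
      rcases ih (Nat.card G - Nat.card L1) (by omega) L1 rfl with ⟨hb, hle⟩ | ⟨hnb, heq⟩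
      · left
        constructor
        · rw [comm_bot_iff] at hb ⊢
          intro x hx y hy
          exact hb x (h1 hx) y (h1 hy)
        · omega
      · have hidx : (L.subgroupOf L1).index = p := by
          have := relIndex_mul_card' h1
          rw [h3] at this
          exact Nat.eq_of_mul_eq_mul_right hLpos this
        have hB := card_commutator_of_index hp2 (hG.to_subgroup L1) (hm.subgroup L1)
          (L.subgroupOf L1) hidx hnb
        rw [card_commutator_congr (Subgroup.subgroupOfEquivOfLe h1)] at hB
        rw [h3, ← hB] at heq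
        have heq' : Nat.card L = (commutator G).index * Nat.card (commutator L) := by
          apply Nat.eq_of_mul_eq_mul_left hp.pos
          rw [heq]; ring
        by_cases hb : commutator L = ⊥
        · left
          refine ⟨hb, ?_⟩
          rw [hb, Subgroup.card_bot, mul_one] at heq'
          exact heq'.le
        · right
          exact ⟨hb, heq'⟩

end Cfsg.Agent.Lib.Helper4.MC
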