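import Cfsg.Agent.Lib.Helper4.Metacyclic4
import Cfsg.Agent.Lib.Helper1.Frattini

set_option autoImplicit false

namespace Cfsg.Agent.Lib.Helper4.MC

open scoped commutatorElement

variable {G : Type*} [Group G] {p : ℕ} [Fact p.Prime] {A : Subgroup G} {a b : G}

theorem mem_zpowers_pow_of_not_dvd (hG : IsPGroup p G) (x : G) {i : ℕ} (hi : ¬ p ∣ i) :
    x ∈ Subgroup.zpowers (x ^ i) := by
  have hp : p.Prime := Fact.out
  obtain ⟨f, hf⟩ := ordp hG x
  have hcop : i.Coprime (orderOf x) := by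
    rw [hf]
    exact Nat.Coprime.pow_right _ ((Nat.Prime.coprime_iff_not_dvd hp).mpr hi).symm
  obtain ⟨m, hm⟩ := exists_pow_eq_self_of_coprime hcop
  exact ⟨m, by simpa using hm⟩

theorem IsSetup.frattini_eq [Finite G] (h : IsSetup p A a b) (hna : ∃ x y : G, x * y ≠ y * x) :
    frattini G = Subgroup.closure {x : G | ∃ y : G, y ^ p ^ 1 = x} := by
  apply le_antisymm
  · intro g hg
    by_contra hcon
    obtain ⟨i, j, rfl⟩ := h.hb g
    have hgen : ∀ K : Subgroup G, a ∈ K → b ∈ K → K = ⊤ := by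
      intro K ha hb
      rw [eq_top_iff]
      intro x _
      obtain ⟨k, l, rfl⟩ := h.hb x
      exact K.mul_mem (K.pow_mem ha _) (K.pow_mem hb _)
    have hnt : ∀ K : Subgroup G, (∀ x ∈ K, ∀ y ∈ K, x * y = y * x) → K ≠ ⊤ := by
      rintro K hK rfl
      obtain ⟨x, y, hxy⟩ := hna
      exact hxy (hK x (Subgroup.mem_top _) y (Subgroup.mem_top _))
    have hfr : ∀ K : Subgroup G, K ⊔ Subgroup.zpowers (a ^ i * b ^ j) = ⊤ → K = ⊤ := by
      intro K hK
      apply frattini_nongenerating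
      rw [eq_top_iff, ← hK]
      exact sup_le_sup_left (by rwa [Subgroup.zpowers_le]) K
    by_cases hj : p ∣ j
    · have hi : ¬ p ∣ i := by
        intro hi
        obtain ⟨i', rfl⟩ := hi
        obtain ⟨j', rfl⟩ := hj
        apply hcon
        rw [pow_mul, pow_mul]
        have hmem : ∀ y : G, y ^ p ∈ Subgroup.closure {x : G | ∃ y : G, y ^ p ^ 1 = x} :=
          fun y => Subgroup.subset_closure ⟨y, by rw [pow_one]⟩
        exact Subgroup.mul_mem _ (Subgroup.pow_mem _ (hmem a) _) (Subgroup.pow_mem _ (hmem b) _)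
      refine hnt (Subgroup.zpowers b) ?_ (hfr _ (hgen _ ?_ ?_))
      · intro x hx y hy
        obtain ⟨k, rfl⟩ := Subgroup.mem_zpowers_iff.mp hx
        obtain ⟨l, rfl⟩ := Subgroup.mem_zpowers_iff.mp hy
        exact ((Commute.refl b).zpow_zpow k l).eq
      · have h1 : a ^ i ∈ Subgroup.zpowers b ⊔ Subgroup.zpowers (a ^ i * b ^ j) :=
          (Subgroup.mul_mem_cancel_right _
            (Subgroup.pow_mem _ (Subgroup.mem_sup_left (Subgroup.mem_zpowers b)) j)).mp
            (Subgroup.mem_sup_right (Subgroup.mem_zpowers _))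
        exact (Subgroup.zpowers_le.mpr h1) (mem_zpowers_pow_of_not_dvd h.pgroup a hi)
      · exact Subgroup.mem_sup_left (Subgroup.mem_zpowers _)
    · refine hnt A ?_ (hfr _ (hgen _ ?_ ?_))
      · intro x hx y hy
        exact (h.commute_of_mem hx hy).eq
      · exact Subgroup.mem_sup_left h.a_mem
      · have h1 : b ^ j ∈ A ⊔ Subgroup.zpowers (a ^ i * b ^ j) :=
          (Subgroup.mul_mem_cancel_left _
            (Subgroup.pow_mem _ (Subgroup.mem_sup_left h.a_mem) i)).mp
            (Subgroup.mem_sup_right (Subgroup.mem_zpowers _))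
        exact (Subgroup.zpowers_le.mpr h1) (mem_zpowers_pow_of_not_dvd h.pgroup b hj)
  · rw [Subgroup.closure_le]
    rintro _ ⟨y, rfl⟩
    rw [pow_one]
    exact Cfsg.Agent.Lib.Helper1.pgroup_pow_mem_frattini h.pgroup y

end Cfsg.Agent.Lib.Helper4.MC
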