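import Cfsg.Agent.Lib.Helper4.Metacyclic5

set_option autoImplicit false

namespace Cfsg.Agent.Lib.Helper4.MC

open scoped commutatorElement

variable {G : Type*} [Group G] {p : ℕ} [Fact p.Prime] {A : Subgroup G} {a b : G}

theorem gs_pow_eq (hp2 : p ≠ 2) {ρ : ℕ} (hρ : ρ % p = 1) (e : ℕ) :
    ∃ w : ℕ, ¬ p ∣ w ∧ gs ρ (p ^ e) = p ^ e * w := by
  have hp : p.Prime := Fact.out
  obtain ⟨w, hw⟩ := (pow_dvd_gs_iff hp hp2 hρ (p ^ e) e).mpr dvd_rfl
  refine ⟨w, ?_, hw⟩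
  rintro ⟨w', rfl⟩
  have h1 : p ^ (e + 1) ∣ gs ρ (p ^ e) := ⟨w', by rw [hw, pow_succ]; ring⟩
  have h2 := (pow_dvd_gs_iff hp hp2 hρ (p ^ e) (e + 1)).mp h1
  have := (Nat.pow_dvd_pow_iff_le_right hp.one_lt).mp h2
  omega

theorem exists_root (hG : IsPGroup p G) (H : Subgroup G) {y : G} (hy : y ∈ H) {w : ℕ}
    (hw : ¬ p ∣ w) : ∃ x ∈ H, x ^ w = y := by
  have hp : p.Prime := Fact.out
  obtain ⟨f, hf⟩ := ordp hG y
  have hcop : w.Coprime (orderOf y) := by
    rw [hf]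
    exact Nat.Coprime.pow_right _ ((Nat.Prime.coprime_iff_not_dvd hp).mpr hw).symm
  obtain ⟨m, hm⟩ := exists_pow_eq_self_of_coprime hcop
  exact ⟨y ^ m, H.pow_mem hy _, by rw [← pow_mul, mul_comm, pow_mul, hm]⟩

/-- data about the quotient -/
theorem IsSetup.exists_k [Finite G] (h : IsSetup p A a b) :
    ∃ k : ℕ, A.index = p ^ k ∧ ∀ x ∈ A, ∀ M : ℕ, (x * b) ^ M ∈ A ↔ p ^ k ∣ M := by
  haveI := h.normal
  have hgen : ∀ q : G ⧸ A, q ∈ Subgroup.zpowers (QuotientGroup.mk b : G ⧸ A) := by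
    intro q
    obtain ⟨g, rfl⟩ := QuotientGroup.mk_surjective q
    obtain ⟨i, j, rfl⟩ := h.hb g
    refine ⟨j, ?_⟩
    have h1 : (QuotientGroup.mk (a ^ i) : G ⧸ A) = 1 :=
      (QuotientGroup.eq_one_iff _).mpr (A.pow_mem h.a_mem _)
    simp only [zpow_natCast]
    rw [QuotientGroup.mk_mul, h1, one_mul, QuotientGroup.mk_pow]
  have hcard := orderOf_eq_card_of_forall_mem_zpowers hgen
  obtain ⟨k, hk⟩ := h.pgroup.index A
  refine ⟨k, hk, ?_⟩
  intro x hx M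
  have h1 : (QuotientGroup.mk x : G ⧸ A) = 1 := (QuotientGroup.eq_one_iff _).mpr hx
  rw [← QuotientGroup.eq_one_iff, QuotientGroup.mk_pow, QuotientGroup.mk_mul, h1, one_mul,
    ← orderOf_dvd_iff_pow_eq_one, hcard, ← Subgroup.index_eq_card, hk]

theorem mem_zpowers_iff_nat [Finite G] {x y : G} : y ∈ Subgroup.zpowers x ↔ ∃ n : ℕ, x ^ n = y := by
  rw [← mem_powers_iff_mem_zpowers, Submonoid.mem_powers_iff]

theorem IsSetup.exists_factorization [Finite G] (h : IsSetup p A a b) (hp2 : p ≠ 2) :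
    ∃ X Y : Subgroup G, IsCyclic X ∧ IsCyclic Y ∧ X ⊓ Y = ⊥ ∧
      Nat.card X * Nat.card Y = Nat.card G := by
  have hp : p.Prime := Fact.out
  obtain ⟨k, hidx, hk⟩ := h.exists_k
  obtain ⟨m, hm⟩ := ordp h.pgroup a
  have hcardA : Nat.card A = p ^ m := by rw [h.hA, Nat.card_zpowers, hm]
  have hcardG : Nat.card G = p ^ m * p ^ k := by rw [← A.card_mul_index, hcardA, hidx]
  have hkb : ∀ M : ℕ, b ^ M ∈ A ↔ p ^ k ∣ M := by
    intro M
    have := hk 1 A.one_mem M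
    rwa [one_mul] at this
  obtain ⟨ρ, hρ, hact⟩ := h.acts b
  -- first case
  have case1 : (∃ x ∈ A, x ^ gs ρ (p ^ k) * b ^ p ^ k = 1) → ∃ X Y : Subgroup G, IsCyclic X ∧
      IsCyclic Y ∧ X ⊓ Y = ⊥ ∧ Nat.card X * Nat.card Y = Nat.card G := by
    rintro ⟨x, hx, hx1⟩
    have hb' : (x * b) ^ p ^ k = 1 := by rw [mul_pow_acts hact hx, hx1]
    refine ⟨A, Subgroup.zpowers (x * b), h.isCyclic, inferInstance, ?_, ?_⟩
    · rw [eq_bot_iff]
      intro w hw
      obtain ⟨hw1, hw2⟩ := Subgroup.mem_inf.mp hw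
      obtain ⟨M, rfl⟩ := mem_zpowers_iff_nat.mp hw2
      obtain ⟨c, rfl⟩ := (hk x hx M).mp hw1
      rw [Subgroup.mem_bot, pow_mul, hb', one_pow]
    · rw [Nat.card_zpowers, hcardA, hcardG]
      congr 1
      apply Nat.dvd_antisymm (orderOf_dvd_of_pow_eq_one hb')
      apply (hk x hx _).mp
      rw [pow_orderOf_eq_one]; exact A.one_mem
  have hzA : b ^ p ^ k ∈ A := (hkb _).mpr dvd_rfl
  by_cases hz1 : b ^ p ^ k = 1
  · exact case1 ⟨1, A.one_mem, by rw [one_pow, one_mul, hz1]⟩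
  have hzA' := hzA
  rw [h.hA] at hzA'
  obtain ⟨t, ht⟩ := mem_zpowers_iff_nat.mp hzA'
  have ht0 : t ≠ 0 := by
    rintro rfl
    rw [pow_zero] at ht
    exact hz1 ht.symm
  obtain ⟨e, u, hu, rfl⟩ := Nat.exists_eq_pow_mul_and_not_dvd ht0 p hp.ne_one
  have hem : e < m := by
    by_contra hcon
    push Not at hcon
    apply hz1
    obtain ⟨d, rfl⟩ := Nat.exists_eq_add_of_le hcon
    rw [← ht, pow_add, mul_assoc, pow_mul, ← hm, pow_orderOf_eq_one, one_pow]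
  have hx0 : (a ^ u)⁻¹ ∈ A := A.inv_mem (A.pow_mem h.a_mem _)
  have hzx0 : ((a ^ u)⁻¹) ^ p ^ e * b ^ p ^ k = 1 := by
    rw [← ht, inv_pow, ← pow_mul, mul_comm u, inv_mul_cancel]
  rcases Nat.lt_or_ge e k with hek | hek
  swap
  · -- e ≥ k
    apply case1
    obtain ⟨w, hw, hgs⟩ := gs_pow_eq hp2 hρ k
    obtain ⟨x, hx, hxw⟩ := exists_root h.pgroup A (A.pow_mem hx0 (p ^ (e - k))) hw
    refine ⟨x, hx, ?_⟩
    rw [hgs, mul_comm, pow_mul, hxw, ← pow_mul, ← pow_add, Nat.sub_add_cancel hek, hzx0]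
  · -- e < k
    obtain ⟨ρ', hρ', hact'⟩ := h.acts (b ^ p ^ (k - e))
    obtain ⟨w, hw, hgs⟩ := gs_pow_eq hp2 hρ' e
    obtain ⟨x, hx, hxw⟩ := exists_root h.pgroup A hx0 hw
    have hbe : (b ^ p ^ (k - e)) ^ p ^ e = b ^ p ^ k := by
      rw [← pow_mul, ← pow_add, Nat.sub_add_cancel hek.le]
    have ha' : (x * b ^ p ^ (k - e)) ^ p ^ e = 1 := by
      rw [mul_pow_acts hact' hx, hgs, mul_comm, pow_mul, hxw, hbe, hzx0]
    have hox : orderOf x = p ^ m := by
      apply Nat.dvd_antisymm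
      · rw [← hcardA]
        have := orderOf_dvd_natCard (⟨x, hx⟩ : A)
        rwa [Subgroup.orderOf_mk] at this
      · have h1 : orderOf (x ^ w) ∣ orderOf x := orderOf_pow_dvd w
        have h2 : orderOf (x ^ w) = p ^ m := by
          rw [hxw, orderOf_inv, ← hm]
          apply Nat.Coprime.orderOf_pow
          rw [hm]
          exact Nat.Coprime.pow_left _ ((Nat.Prime.coprime_iff_not_dvd hp).mpr hu)
        rwa [h2] at h1
    have hzkill : (b ^ p ^ k) ^ p ^ (m - e) = 1 := by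
      rw [← ht, ← pow_mul, mul_right_comm, ← pow_add, Nat.add_sub_cancel' hem.le, pow_mul, ← hm,
        pow_orderOf_eq_one, one_pow]
    have key : ∀ M : ℕ, (x * b ^ p ^ (k - e)) ^ M ∈ Subgroup.zpowers b → p ^ e ∣ M := by
      intro M hM
      rw [mul_pow_acts hact' hx] at hM
      have h1 : x ^ gs ρ' M ∈ Subgroup.zpowers b :=
        (Subgroup.mul_mem_cancel_right _
          (Subgroup.pow_mem _ (Subgroup.pow_mem _ (Subgroup.mem_zpowers b) _) _)).mp hM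
      obtain ⟨L, hL⟩ := mem_zpowers_iff_nat.mp h1
      have h2 : b ^ L ∈ A := by rw [hL]; exact A.pow_mem hx _
      obtain ⟨c, rfl⟩ := (hkb L).mp h2
      have h3 : (x ^ gs ρ' M) ^ p ^ (m - e) = 1 := by
        rw [← hL, pow_mul, ← pow_mul, mul_comm c, pow_mul, hzkill, one_pow]
      rw [← pow_mul, ← orderOf_dvd_iff_pow_eq_one, hox, pow_dvd_gs_mul_iff hp hp2 hρ'] at h3
      have h4 : p ^ m = p ^ e * p ^ (m - e) := by rw [← pow_add, Nat.add_sub_cancel' hem.le]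
      rw [h4] at h3
      exact Nat.dvd_of_mul_dvd_mul_right (pow_pos hp.pos _) h3
    have hoz : orderOf (b ^ p ^ k) = p ^ (m - e) := by
      apply orderOf_eq_of_forall
      intro K
      rw [← ht, ← pow_mul, ← orderOf_dvd_iff_pow_eq_one, hm]
      have h4 : p ^ m = p ^ e * p ^ (m - e) := by rw [← pow_add, Nat.add_sub_cancel' hem.le]
      rw [h4, mul_assoc, Nat.mul_dvd_mul_iff_left (pow_pos hp.pos _)]
      have hcop : (p ^ (m - e)).Coprime u :=
        Nat.Coprime.pow_left _ ((Nat.Prime.coprime_iff_not_dvd hp).mpr hu)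
      exact ⟨fun hd => hcop.dvd_of_dvd_mul_left hd, fun hd => Dvd.dvd.mul_left hd u⟩
    have hob : orderOf b = p ^ k * p ^ (m - e) := by
      apply orderOf_eq_of_forall
      intro K
      constructor
      · intro hK
        obtain ⟨c, rfl⟩ := (hkb K).mp (by rw [hK]; exact A.one_mem)
        rw [pow_mul, ← orderOf_dvd_iff_pow_eq_one, hoz] at hK
        exact Nat.mul_dvd_mul_left _ hK
      · rintro ⟨c, rfl⟩
        rw [mul_assoc, pow_mul, pow_mul, hzkill, one_pow]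
    refine ⟨Subgroup.zpowers (x * b ^ p ^ (k - e)), Subgroup.zpowers b, inferInstance,
      inferInstance, ?_, ?_⟩
    · rw [eq_bot_iff]
      intro w' hw'
      obtain ⟨hw1, hw2⟩ := Subgroup.mem_inf.mp hw'
      obtain ⟨M, rfl⟩ := mem_zpowers_iff_nat.mp hw1
      obtain ⟨c, rfl⟩ := key M hw2
      rw [Subgroup.mem_bot, pow_mul, ha', one_pow]
    · have hoa : orderOf (x * b ^ p ^ (k - e)) = p ^ e := by
        apply Nat.dvd_antisymm (orderOf_dvd_of_pow_eq_one ha')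
        apply key
        rw [pow_orderOf_eq_one]; exact Subgroup.one_mem _
      rw [Nat.card_zpowers, Nat.card_zpowers, hoa, hob, hcardG]
      have h4 : p ^ m = p ^ e * p ^ (m - e) := by rw [← pow_add, Nat.add_sub_cancel' hem.le]
      rw [h4]; ring

end Cfsg.Agent.Lib.Helper4.MC
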